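import Mathlib
import Cfsg.Agent.H572.SzModJ

/-!
# Martineau's theorem for the Suzuki groups, part K: the main theorem

`martineau`: if `G / Q ≅ Sz(q)`, `Q` is a normal 2-subgroup of the finite group `G` and all elements of order 5 of `G`
act on `Q` without nontrivial fixed points, then `Q` is elementary abelian.
`martineau_centralizer`: moreover `C_Q(s) = C_Q(t)` whenever `s`, `t` map to nontrivial elements `u(0,a)`, `u(0,b)`
of the centre of the Sylow 2-subgroup.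
-/

set_option autoImplicit false

universe u v

namespace Cfsg.Agent.H572.SzMod

open scoped Matrix
open Cfsg.Agent.LieRecognition.SzMatrix
open Cfsg.Agent.ThreePrime

variable {F : Type u} [Field F] {θ : F →+* F} {e : ℕ}

theorem card_map_lt {G K : Type*} [Group G] [Group K] [Finite G] (f : G →* K) (Q : Subgroup G) {z : G} (hz : z ∈ Q)
    (hz1 : z ≠ 1) (hf : f z = 1) : Nat.card (Q.map f) < Nat.card Q := by
  by_contra h
  push Not at h
  have h1 := (f.subgroupMap_surjective Q).bijective_of_nat_card_le h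
  apply hz1
  have h2 : f.subgroupMap Q ⟨z, hz⟩ = f.subgroupMap Q 1 := by
    rw [map_one]
    exact Subtype.ext hf
  exact congrArg Subtype.val (h1.1 h2)

/-- commutators -/
def cm {G : Type*} [Group G] (x y : G) : G := x * y * x⁻¹ * y⁻¹

theorem cm_mul_left {G : Type*} [Group G] {x x' y : G} (h : x * cm x' y = cm x' y * x) :
    cm (x * x') y = cm x' y * cm x y := by
  have h1 : cm (x * x') y = (x * cm x' y) * (y * x⁻¹ * y⁻¹) := by
    unfold cm; group
  rw [h1, h]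
  unfold cm; group

theorem cm_mul_right {G : Type*} [Group G] {x y y' : G} (h : y * cm x y' = cm x y' * y) :
    cm x (y * y') = cm x y * cm x y' := by
  have h1 : cm x (y * y') = (x * y * x⁻¹) * (cm x y' * y⁻¹) := by
    unfold cm; group
  have h2 : cm x y' * y⁻¹ = y⁻¹ * cm x y' := by
    rw [eq_inv_mul_iff_mul_eq, ← mul_assoc, h, mul_inv_cancel_right]
  rw [h1, h2]
  unfold cm; group

theorem cm_eq_one_iff {G : Type*} [Group G] (x y : G) : cm x y = 1 ↔ x * y = y * x := by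
  unfold cm
  rw [mul_inv_eq_one, mul_inv_eq_iff_eq_mul]

theorem map_cm {G K : Type*} [Group G] [Group K] (f : G →* K) (x y : G) : f (cm x y) = cm (f x) (f y) := by
  unfold cm
  rw [map_mul, map_mul, map_mul, map_inv, map_inv]

/-- the commutator of a group whose quotient by a central subgroup is abelian, as a bi-additive map -/
theorem comm_aux (H : Good F θ e) [Finite F] (hθ : ∃ x : F, θ x ≠ x) {G : Type v} [Group G] [Finite G]
    (p : G →* ↥(Cfsg.Lie.Sz F e)) (hp : Function.Surjective p) (hk : IsPGroup 2 p.ker) (hf : Free5 p.ker)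
    (Z : Subgroup G) [Z.Normal] (hZ : Z ≤ p.ker) (hZc : ∀ g ∈ p.ker, ∀ x ∈ Z, g * x = x * g)
    (hab : ∀ x ∈ p.ker.map (QuotientGroup.mk' Z), ∀ y ∈ p.ker.map (QuotientGroup.mk' Z), x * y = y * x)
    (x y : G) (hx : x ∈ p.ker) (hy : y ∈ p.ker) : x * y = y * x := by
  -- the quotient
  let pb : G ⧸ Z →* ↥(Cfsg.Lie.Sz F e) := QuotientGroup.lift Z p hZ
  have hpb : Function.Surjective pb := by
    intro s
    obtain ⟨g, rfl⟩ := hp s
    exact ⟨QuotientGroup.mk' Z g, rfl⟩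
  have hkb : pb.ker = p.ker.map (QuotientGroup.mk' Z) := by
    ext q
    obtain ⟨g, rfl⟩ := QuotientGroup.mk'_surjective Z q
    constructor
    · intro hq
      exact ⟨g, hq, rfl⟩
    · rintro ⟨g', hg', h⟩
      rw [← h]
      exact hg'
  have hf2 : Free5 pb.ker := by
    rw [hkb]
    exact free5_quot hZ hk hZc hf
  have hk2 : IsPGroup 2 pb.ker := by
    rw [hkb]
    exact hk.map _
  have hab2 : ∀ g ∈ pb.ker, ∀ x ∈ pb.ker, g * x = x * g := by
    rw [hkb]
    exact hab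
  have hcb : ∀ x y : pb.ker, x * y = y * x := fun x y => Subtype.ext (hab2 x x.2 y y.2)
  obtain ⟨ρb, hρb⟩ := exists_rho pb hpb pb.ker hab2
  have hA5 := f5_of_free H pb hpb hk2 hf2 le_rfl hcb ρb hρb
  have hfin : Finite (AbM hcb ρb) := inferInstanceAs (Finite pb.ker)
  have hA2 : E2 (AbM hcb ρb) := by
    suffices key : ∀ q : pb.ker, AbM.of hcb ρb q + AbM.of hcb ρb q = 0 from fun q => key (AbM.to hcb ρb q)
    intro q
    rw [← AbM.of_mul, ← AbM.of_one]
    congr 1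
    apply Subtype.ext
    exact exp_two_of_comm H hθ pb hpb hk2 hf2 pb.ker le_rfl hab2 q q.2
  -- the central subgroup
  have hcZ : ∀ x y : Z, x * y = y * x := fun x y => Subtype.ext (hZc x (hZ x.2) y y.2)
  obtain ⟨ρ, hρ⟩ := exists_rho p hp Z hZc
  have hC5 := f5_of_free H p hp hk hf hZ hcZ ρ hρ
  have hfin2 : Finite (AbM hcZ ρ) := inferInstanceAs (Finite Z)
  have hC2 : E2 (AbM hcZ ρ) := by
    suffices key : ∀ q : Z, AbM.of hcZ ρ q + AbM.of hcZ ρ q = 0 from fun q => key (AbM.to hcZ ρ q)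
    intro q
    rw [← AbM.of_mul, ← AbM.of_one]
    congr 1
    apply Subtype.ext
    exact exp_two_of_comm H hθ p hp hk hf Z hZ hZc q q.2
  -- lifts
  have hlift : ∀ q : pb.ker, ∃ g : G, g ∈ p.ker ∧ QuotientGroup.mk' Z g = q := by
    intro q
    have h1 : (q : G ⧸ Z) ∈ p.ker.map (QuotientGroup.mk' Z) := hkb ▸ q.2
    obtain ⟨g, hg, h⟩ := h1
    exact ⟨g, hg, h⟩
  choose s hsk hsm using hlift
  have hcmZ : ∀ x ∈ p.ker, ∀ y ∈ p.ker, cm x y ∈ Z := by
    intro x hx y hy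
    rw [← QuotientGroup.ker_mk' Z, MonoidHom.mem_ker, map_cm, cm_eq_one_iff]
    exact hab _ ⟨x, hx, rfl⟩ _ ⟨y, hy, rfl⟩
  have hcl : ∀ x ∈ p.ker, ∀ x' ∈ p.ker, ∀ y ∈ p.ker, cm (x * x') y = cm x' y * cm x y := by
    intro x hx x' hx' y hy
    exact cm_mul_left (hZc x hx _ (hcmZ x' hx' y hy))
  have hcr : ∀ x ∈ p.ker, ∀ y ∈ p.ker, ∀ y' ∈ p.ker, cm x (y * y') = cm x y * cm x y' := by
    intro x hx y hy y' hy'
    exact cm_mul_right (hZc y hy _ (hcmZ x hx y' hy'))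
  have hcl1 : ∀ x ∈ p.ker, ∀ x' ∈ p.ker, ∀ y ∈ p.ker, QuotientGroup.mk' Z x = QuotientGroup.mk' Z x' →
      cm x y = cm x' y := by
    intro x hx x' hx' y hy h
    have h1 : x'⁻¹ * x ∈ Z := by
      rw [← QuotientGroup.ker_mk' Z, MonoidHom.mem_ker, map_mul, map_inv, h, inv_mul_cancel]
    have h2 : x = x' * (x'⁻¹ * x) := by group
    rw [h2, hcl _ hx' _ (hZ h1) _ hy, (cm_eq_one_iff _ _).2 (hZc y hy _ h1).symm, one_mul]
  have hcr1 : ∀ x ∈ p.ker, ∀ y ∈ p.ker, ∀ y' ∈ p.ker, QuotientGroup.mk' Z y = QuotientGroup.mk' Z y' →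
      cm x y = cm x y' := by
    intro x hx y hy y' hy' h
    have h1 : y'⁻¹ * y ∈ Z := by
      rw [← QuotientGroup.ker_mk' Z, MonoidHom.mem_ker, map_mul, map_inv, h, inv_mul_cancel]
    have h2 : y = y' * (y'⁻¹ * y) := by group
    rw [h2, hcr _ hx _ hy' _ (hZ h1), (cm_eq_one_iff _ _).2 (hZc x hx _ h1), mul_one]
  -- the bi-additive map
  let β0 : pb.ker → pb.ker → Z := fun q r => ⟨cm (s q) (s r), hcmZ _ (hsk q) _ (hsk r)⟩
  have hβl : ∀ q q' r, β0 (q * q') r = β0 q r * β0 q' r := by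
    intro q q' r
    apply Subtype.ext
    show cm (s (q * q')) (s r) = cm (s q) (s r) * cm (s q') (s r)
    rw [hcl1 (s (q * q')) (hsk _) (s q * s q') (p.ker.mul_mem (hsk _) (hsk _)) _ (hsk r) (by
      rw [map_mul, hsm, hsm, hsm]; rfl), hcl _ (hsk _) _ (hsk _) _ (hsk _)]
    exact hZc _ (hZ (hcmZ _ (hsk _) _ (hsk _))) _ (hcmZ _ (hsk _) _ (hsk _))
  have hβr : ∀ q r r', β0 q (r * r') = β0 q r * β0 q r' := by
    intro q r r'
    apply Subtype.ext
    show cm (s q) (s (r * r')) = cm (s q) (s r) * cm (s q) (s r')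
    rw [hcr1 _ (hsk q) (s (r * r')) (hsk _) (s r * s r') (p.ker.mul_mem (hsk _) (hsk _)) (by
      rw [map_mul, hsm, hsm, hsm]; rfl), hcr _ (hsk _) _ (hsk _) _ (hsk _)]
  let β : AbM hcb ρb →+ AbM hcb ρb →+ AbM hcZ ρ :=
    AddMonoidHom.mk' (fun q => AddMonoidHom.mk' (fun r => AbM.of hcZ ρ (β0 (AbM.to hcb ρb q) (AbM.to hcb ρb r)))
      (fun r r' => congrArg (AbM.of hcZ ρ) (hβr (AbM.to hcb ρb q) (AbM.to hcb ρb r) (AbM.to hcb ρb r'))))
      (fun q q' => by
        refine AddMonoidHom.ext fun r => ?_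
        exact congrArg (AbM.of hcZ ρ) (hβl (AbM.to hcb ρb q) (AbM.to hcb ρb q') (AbM.to hcb ρb r)))
  have hβ : ∀ (g : ↥(Cfsg.Lie.Sz F e)) (q r : AbM hcb ρb), β (gr g • q) (gr g • r) = gr g • β q r := by
    intro g
    obtain ⟨γ, rfl⟩ := hp g
    suffices key : ∀ q r : pb.ker, AbM.of hcZ ρ (β0 (ρb (p γ) q) (ρb (p γ) r)) = AbM.of hcZ ρ (ρ (p γ) (β0 q r)) by
      intro q r
      have h1 := key (AbM.to hcb ρb q) (AbM.to hcb ρb r)
      have h2 := AbM.smul_def hcb ρb (p γ) (AbM.to hcb ρb q)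
      have h3 := AbM.smul_def hcb ρb (p γ) (AbM.to hcb ρb r)
      have h4 := AbM.smul_def hcZ ρ (p γ) (β0 (AbM.to hcb ρb q) (AbM.to hcb ρb r))
      have h2' : gr (p γ) • q = AbM.of hcb ρb (ρb (p γ) (AbM.to hcb ρb q)) := h2
      have h3' : gr (p γ) • r = AbM.of hcb ρb (ρb (p γ) (AbM.to hcb ρb r)) := h3
      have h4' : gr (p γ) • β q r = AbM.of hcZ ρ (ρ (p γ) (β0 (AbM.to hcb ρb q) (AbM.to hcb ρb r))) := h4
      rw [h2', h3', h4']
      exact h1
    intro q r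
    congr 1
    apply Subtype.ext
    rw [hρ]
    show cm (s (ρb (p γ) q)) (s (ρb (p γ) r)) = γ * cm (s q) (s r) * γ⁻¹
    have hm : ∀ q : pb.ker, QuotientGroup.mk' Z (s (ρb (p γ) q)) = QuotientGroup.mk' Z (γ * s q * γ⁻¹) := by
      intro q
      rw [hsm, map_mul, map_mul, hsm, map_inv]
      exact hρb (QuotientGroup.mk' Z γ) q
    have hn : ∀ q : pb.ker, γ * s q * γ⁻¹ ∈ p.ker := fun q => Subgroup.Normal.conj_mem inferInstance _ (hsk q) γ
    rw [hcl1 _ (hsk _) _ (hn q) _ (hsk _) (hm q), hcr1 _ (hn q) _ (hsk _) _ (hn r) (hm r)]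
    unfold cm
    group
  have hβ0 := bilin_zero H hθ hA2 hA5 hA2 hA5 hC2 hC5 β hβ
  have hxb : QuotientGroup.mk' Z x ∈ pb.ker := hx
  have hyb : QuotientGroup.mk' Z y ∈ pb.ker := hy
  have h1 := hβ0 (AbM.of hcb ρb ⟨_, hxb⟩) (AbM.of hcb ρb ⟨_, hyb⟩)
  have h2 : cm (s ⟨_, hxb⟩) (s ⟨_, hyb⟩) = 1 := congrArg Subtype.val h1
  rw [hcl1 _ (hsk _) x hx _ (hsk _) (hsm _), hcr1 _ hx _ (hsk _) y hy (hsm _), cm_eq_one_iff] at h2
  exact h2

theorem martineau_aux (H : Good F θ e) [Finite F] (hθ : ∃ x : F, θ x ≠ x) (n : ℕ) :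
    ∀ (G : Type v) [Group G] [Finite G] (p : G →* ↥(Cfsg.Lie.Sz F e)), Function.Surjective p →
      IsPGroup 2 p.ker → Free5 p.ker → Nat.card p.ker ≤ n → ∀ x ∈ p.ker, ∀ y ∈ p.ker, x * y = y * x := by
  induction n with
  | zero =>
    intro G _ _ p _ _ _ hn
    have := Nat.card_pos (α := p.ker)
    omega
  | succ n ih =>
    intro G _ _ p hp hk hf hn
    let Z : Subgroup G := p.ker ⊓ Subgroup.centralizer (p.ker : Set G)
    have hZ : Z ≤ p.ker := inf_le_left
    have hZc : ∀ g ∈ p.ker, ∀ x ∈ Z, g * x = x * g := fun g hg x hx =>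
      Subgroup.mem_centralizer_iff.1 hx.2 g hg
    have hZn : Z.Normal := inferInstance
    by_cases hb : p.ker = ⊥
    · intro x hx y hy
      rw [hb, Subgroup.mem_bot] at hx hy
      rw [hx, hy]
    -- a nontrivial element of `Z`
    obtain ⟨z, hz, hz1⟩ : ∃ z ∈ Z, z ≠ 1 := by
      have : Nontrivial p.ker := (Subgroup.nontrivial_iff_ne_bot _).2 hb
      have : Fact (Nat.Prime 2) := ⟨Nat.prime_two⟩
      have h1 := hk.center_nontrivial
      obtain ⟨z, hz⟩ := exists_ne (1 : Subgroup.center p.ker)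
      refine ⟨z, ⟨z.1.2, Subgroup.mem_centralizer_iff.2 fun g hg => ?_⟩, ?_⟩
      · exact congrArg Subtype.val (Subgroup.mem_center_iff.1 z.2 ⟨g, hg⟩)
      · intro h
        apply hz
        exact Subtype.ext (Subtype.ext h)
    have hlt : Nat.card (p.ker.map (QuotientGroup.mk' Z)) < Nat.card p.ker :=
      card_map_lt _ _ (hZ hz) hz1 ((QuotientGroup.eq_one_iff z).2 hz)
    refine fun x hx y hy => comm_aux H hθ p hp hk hf Z hZ hZc ?_ x y hx hy
    let pb : G ⧸ Z →* ↥(Cfsg.Lie.Sz F e) := QuotientGroup.lift Z p hZ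
    have hpb : Function.Surjective pb := by
      intro s
      obtain ⟨g, rfl⟩ := hp s
      exact ⟨QuotientGroup.mk' Z g, rfl⟩
    have hkb : pb.ker = p.ker.map (QuotientGroup.mk' Z) := by
      ext q
      obtain ⟨g, rfl⟩ := QuotientGroup.mk'_surjective Z q
      constructor
      · intro hq
        exact ⟨g, hq, rfl⟩
      · rintro ⟨g', hg', h⟩
        rw [← h]
        exact hg'
    have h2 := ih (G ⧸ Z) pb hpb (by rw [hkb]; exact hk.map _) (by
      rw [hkb]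
      exact free5_quot hZ hk hZc hf) (by rw [hkb]; omega)
    rwa [hkb] at h2

/-- **Martineau's theorem for the Suzuki groups**, for homomorphisms onto `Sz(F)` -/
theorem martineau_hom (H : Good F θ e) [Finite F] (hθ : ∃ x : F, θ x ≠ x) {G : Type v} [Group G] [Finite G]
    (p : G →* ↥(Cfsg.Lie.Sz F e)) (hp : Function.Surjective p) (hk : IsPGroup 2 p.ker) (hf : Free5 p.ker) :
    (∀ x ∈ p.ker, ∀ y ∈ p.ker, x * y = y * x) ∧ ∀ x ∈ p.ker, x * x = 1 := by
  have h1 := martineau_aux H hθ _ G p hp hk hf le_rfl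
  exact ⟨h1, exp_two_of_comm H hθ p hp hk hf p.ker le_rfl h1⟩

end Cfsg.Agent.H572.SzMod
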