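import Mathlib
import Cfsg.Agent.H572.SzModK

/-!
# Martineau's theorem for the Suzuki groups: final forms

* `martineau`: `G` finite, `Q` a normal 2-subgroup, `G / Q ≅ Sz(q)`, elements of order 5 act on `Q` without nontrivial
  fixed points ⇒ `Q` is elementary abelian.
* `martineau_odd`: the same with the hypothesis for all nontrivial elements of odd order.
* `martineau_fixed`: in that case two elements `s`, `t` whose images in `G / Q` are commuting involutions have the same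
  centralizer in `Q`.
-/

set_option autoImplicit false

universe v

namespace Cfsg.Agent.H572.SzFree

open Cfsg.Agent.LieRecognition.SzMatrix
open Cfsg.Agent.ThreePrime
open Cfsg.Agent.H572.SzMod

/-- the set-up: a surjection onto `Sz(F)` with kernel `Q` -/
theorem exists_hom_sz {G : Type v} [Group G] (Q : Subgroup G) [Q.Normal] (hS : Cfsg.Lie.IsoSuzuki (G ⧸ Q)) :
    ∃ (F : Type) (_ : Field F) (_ : Fintype F) (θ : F →+* F) (e : ℕ) (_ : Good F θ e)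
      (p : G →* ↥(Cfsg.Lie.Sz F e)), Function.Surjective p ∧ p.ker = Q ∧ ∃ x : F, θ x ≠ x := by
  obtain ⟨F, iF, iF', m, hm, hc, ⟨f⟩⟩ := hS
  refine ⟨F, iF, iF', theta hc, 2 ^ (m + 1), good hc, f.toMonoidHom.comp (QuotientGroup.mk' Q), ?_, ?_, ?_⟩
  · exact f.surjective.comp (QuotientGroup.mk'_surjective Q)
  · ext x
    rw [MonoidHom.mem_ker]
    have h1 : (f.toMonoidHom.comp (QuotientGroup.mk' Q)) x = f (QuotientGroup.mk' Q x) := rfl
    rw [h1, map_eq_one_iff f f.injective, ← MonoidHom.mem_ker, QuotientGroup.ker_mk']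
  · refine (SzRel.ofGood (good hc)).exists_theta_ne ?_
    rw [Nat.card_eq_fintype_card, hc]
    exact SzRel.Rel.eight_le hm

/-- **Martineau's theorem for the Suzuki groups** -/
theorem martineau {G : Type v} [Group G] [Finite G] (Q : Subgroup G) [Q.Normal] (hQ : IsPGroup 2 Q)
    (hS : Cfsg.Lie.IsoSuzuki (G ⧸ Q)) (hf : ∀ g : G, orderOf g = 5 → ∀ x ∈ Q, g * x = x * g → x = 1) :
    (∀ x ∈ Q, ∀ y ∈ Q, x * y = y * x) ∧ ∀ x ∈ Q, x * x = 1 := by
  obtain ⟨F, _, _, θ, e, H, p, hp, rfl, hθ⟩ := exists_hom_sz Q hS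
  exact martineau_hom H hθ p hp hQ hf

/-- **Martineau's theorem for the Suzuki groups**, with all elements of odd order -/
theorem martineau_odd {G : Type v} [Group G] [Finite G] (Q : Subgroup G) [Q.Normal] (hQ : IsPGroup 2 Q)
    (hS : Cfsg.Lie.IsoSuzuki (G ⧸ Q))
    (hf : ∀ x : G, Odd (orderOf x) → x ≠ 1 → ∀ q ∈ Q, Commute x q → q = 1) :
    (∀ x ∈ Q, ∀ y ∈ Q, x * y = y * x) ∧ ∀ x ∈ Q, x * x = 1 := by
  refine martineau Q hQ hS ?_
  intro g hg x hx h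
  refine hf g (by rw [hg]; decide) ?_ x hx h
  rintro rfl
  rw [orderOf_one] at hg
  norm_num at hg

/-- an involution in the Borel subgroup is in the Sylow subgroup -/
theorem inv_borel {J : Type*} [Group J] {F : Type*} [Field F] (R : SzRel.Rel J F) {a b : F} {k : Fˣ}
    (h : (R.u a b * R.d k) * (R.u a b * R.d k) = 1) : a = 0 ∧ k = 1 := by
  have h1 : (R.u a b * R.d k) * (R.u a b * R.d k) =
      R.u (a + a * k ^ 2 * (R.θ k)⁻¹) (b + b * R.θ k + a * R.θ (a * k ^ 2 * (R.θ k)⁻¹)) * R.d (k * k) := by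
    rw [mul_assoc, ← mul_assoc (R.d k), R.d_mul_u, mul_assoc, R.d_mul, ← mul_assoc, R.u_mul]
  have h2 : (1 : J) = R.u 0 0 * R.d 1 := by rw [R.u_zero, R.d_one, one_mul]
  rw [h1, h2] at h
  obtain ⟨h3, -, h5⟩ := R.ud_inj h
  have hk : k = 1 := by
    have h6 : (k : F) * k = 1 := congrArg Units.val h5
    have h7 : ((k : F) - 1) ^ 2 = 0 := by
      linear_combination h6 + (1 - (k : F)) * R.two
    have h8 : (k : F) - 1 = 0 := pow_eq_zero_iff two_ne_zero |>.mp h7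
    exact Units.ext (sub_eq_zero.mp h8)
  subst hk
  refine ⟨?_, rfl⟩
  have h4 := h
  rw [← h2, ← h1, R.d_one, mul_one, R.u_sq_iff] at h4
  exact h4

/-- involutions of `Sz(F)` are conjugate into the centre of the Sylow subgroup -/
theorem exists_conj_one {F : Type*} [Field F] [Finite F] {θ : F →+* F} {e : ℕ} (H : Good F θ e)
    (s : ↥(Cfsg.Lie.Sz F e)) (hs : s * s = 1) (hs1 : s ≠ 1) :
    ∃ (g : ↥(Cfsg.Lie.Sz F e)) (a : F), a ≠ 0 ∧ g * s * g⁻¹ = H.u 0 a := by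
  rcases (SzRel.ofGood H).bruhat s with ⟨a, b, k, h⟩ | ⟨a, b, c, d, k, h⟩
  · obtain ⟨ha, hk⟩ := inv_borel (SzRel.ofGood H) (by rw [← h]; exact hs)
    refine ⟨1, b, ?_, ?_⟩
    · rintro rfl
      apply hs1
      rw [h, ha, hk, (SzRel.ofGood H).u_zero, (SzRel.ofGood H).d_one, mul_one]
    · rw [h, ha, hk, (SzRel.ofGood H).d_one, mul_one]
      show 1 * H.u 0 b * 1⁻¹ = H.u 0 b
      group
  · have h : s = H.u a b * H.w * (H.u c d * H.d k) := h
    -- conjugate by `u a b`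
    set t : ↥(Cfsg.Lie.Sz F e) := H.u c d * H.d k * H.u a b with ht
    have e1 : (H.u a b)⁻¹ * s * (H.u a b) = H.w * t := by
      rw [h, ht]; group
    have e2 : (H.w * t) * (H.w * t) = 1 := by
      rw [← e1]
      calc (H.u a b)⁻¹ * s * (H.u a b) * ((H.u a b)⁻¹ * s * (H.u a b)) = (H.u a b)⁻¹ * (s * s) * H.u a b := by group
        _ = 1 := by rw [hs]; group
    obtain ⟨c', d', ht'⟩ : ∃ c' d', t = H.u c' d' * H.d k :=
      ⟨c + a * k ^ 2 * (θ k)⁻¹, d + b * θ k + c * θ (a * k ^ 2 * (θ k)⁻¹), by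
        rw [ht, mul_assoc, H.d_mul_u, ← mul_assoc, H.u_mul]⟩
    -- `w t w = t⁻¹` is in the Borel subgroup
    have e3 : (SzRel.ofGood H).w * (SzRel.ofGood H).u c' d' * (SzRel.ofGood H).w =
        (SzRel.ofGood H).u ((c' * (k⁻¹ : Fˣ) ^ 2 * (θ (k⁻¹ : Fˣ))⁻¹)) ((d' + c' * θ c') * θ (k⁻¹ : Fˣ)) *
          (SzRel.ofGood H).d 1 := by
      show H.w * H.u c' d' * H.w = H.u _ _ * H.d 1
      have e4 : H.w * t * H.w = t⁻¹ := by
        rw [eq_inv_iff_mul_eq_one, mul_assoc]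
        exact e2
      have e5 : H.w * t * H.w = (H.w * H.u c' d' * H.w) * H.d k⁻¹ := by
        have e6 : H.d k * H.w = H.w * H.d k⁻¹ := by rw [H.w_mul_d, inv_inv]
        rw [ht', ← mul_assoc, mul_assoc _ (H.d k), e6, ← mul_assoc]
      have e7 : t⁻¹ = H.u (c' * (k⁻¹ : Fˣ) ^ 2 * (θ (k⁻¹ : Fˣ))⁻¹) ((d' + c' * θ c') * θ (k⁻¹ : Fˣ)) * H.d k⁻¹ := by
        rw [ht', _root_.mul_inv_rev, H.d_inv, H.u_inv, H.d_mul_u]
      rw [e4, e7] at e5
      rw [H.d_one, mul_one]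
      exact (mul_right_cancel e5).symm
    obtain ⟨hc', hd'⟩ := (SzRel.ofGood H).inter _ _ _ _ _ e3
    have ht2 : t = H.d k := by rw [ht', hc', hd', H.u_zero, one_mul]
    -- a square root of `k`
    obtain ⟨l0, hl0⟩ := exists_sqrt H.two (k : F)
    have hl1 : l0 ≠ 0 := by
      rintro rfl
      rw [zero_pow two_ne_zero] at hl0
      exact k.ne_zero hl0.symm
    set l : Fˣ := Units.mk0 l0 hl1 with hl
    have hlk : l * l = k := by
      apply Units.ext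
      rw [Units.val_mul, hl, Units.val_mk0, ← hl0, pow_two]
    have e8 : H.d l * (H.w * t) * (H.d l)⁻¹ = H.w := by
      have e9 : H.d l * H.w = H.w * H.d l⁻¹ := by rw [H.w_mul_d, inv_inv]
      rw [ht2, ← mul_assoc, e9, H.d_inv, mul_assoc, mul_assoc, H.d_mul, H.d_mul]
      have e10 : l⁻¹ * (k * l⁻¹) = 1 := by
        rw [← hlk]; group
      rw [e10, H.d_one, mul_one]
    -- `w` is conjugate to `u(0,1)`
    have h11 : H.u 0 1 * H.u 0 1 = 1 := by rw [u_mul_zero, H.add_self, H.u_zero]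
    have e11 : H.w = (yy H) ^ 3 * H.u 0 1 * ((yy H) ^ 3)⁻¹ := by
      have e12 : H.u 0 1 * yy H * (H.u 0 1)⁻¹ = (yy H)⁻¹ := by
        rw [yy, mul_inv_rev, H.w_inv, inv_eq_of_mul_eq_one_right h11, mul_assoc, mul_assoc, h11, mul_one]
      have e13 : H.u 0 1 * ((yy H) ^ 3)⁻¹ * (H.u 0 1)⁻¹ = (yy H) ^ 3 := by
        have : H.u 0 1 * ((yy H) ^ 3)⁻¹ * (H.u 0 1)⁻¹ = ((H.u 0 1 * yy H * (H.u 0 1)⁻¹) ^ 3)⁻¹ := by
          rw [conj_pow]; group
        rw [this, e12, inv_pow, inv_inv]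
      have e14 : H.u 0 1 * ((yy H) ^ 3)⁻¹ = (yy H) ^ 3 * H.u 0 1 := by
        rw [← mul_inv_eq_iff_eq_mul]
        exact e13
      rw [mul_assoc, e14, ← mul_assoc, ← pow_add]
      have e15 : (yy H) ^ (3 + 3) = yy H := by
        rw [show 3 + 3 = 5 + 1 from rfl, pow_succ, yy_pow, one_mul]
      rw [e15, yy, mul_assoc, h11, mul_one]
    refine ⟨((yy H) ^ 3)⁻¹ * H.d l * (H.u a b)⁻¹, 1, one_ne_zero, ?_⟩
    calc ((yy H) ^ 3)⁻¹ * H.d l * (H.u a b)⁻¹ * s * (((yy H) ^ 3)⁻¹ * H.d l * (H.u a b)⁻¹)⁻¹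
        = ((yy H) ^ 3)⁻¹ * (H.d l * ((H.u a b)⁻¹ * s * H.u a b) * (H.d l)⁻¹) * (yy H) ^ 3 := by group
      _ = ((yy H) ^ 3)⁻¹ * H.w * (yy H) ^ 3 := by rw [e1, e8]
      _ = H.u 0 1 := by rw [e11]; group

/-- commuting involutions of `Sz(F)` are conjugate into the centre of the Sylow 2-subgroup -/
theorem exists_conj {F : Type*} [Field F] [Finite F] {θ : F →+* F} {e : ℕ} (H : Good F θ e)
    (s t : ↥(Cfsg.Lie.Sz F e)) (hs : s * s = 1) (ht : t * t = 1) (hs1 : s ≠ 1) (ht1 : t ≠ 1)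
    (hst : s * t = t * s) : ∃ (g : ↥(Cfsg.Lie.Sz F e)) (a b : F), a ≠ 0 ∧ b ≠ 0 ∧
      g * s * g⁻¹ = H.u 0 a ∧ g * t * g⁻¹ = H.u 0 b := by
  obtain ⟨g, a, ha, hg⟩ := exists_conj_one H s hs hs1
  set t' : ↥(Cfsg.Lie.Sz F e) := g * t * g⁻¹ with ht'
  have h1 : t' * (SzRel.ofGood H).u 0 a * t'⁻¹ = (SzRel.ofGood H).u 0 a := by
    show t' * H.u 0 a * t'⁻¹ = H.u 0 a
    rw [← hg, ht']
    calc g * t * g⁻¹ * (g * s * g⁻¹) * (g * t * g⁻¹)⁻¹ = g * (t * s) * t⁻¹ * g⁻¹ := by group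
      _ = g * s * g⁻¹ := by rw [← hst]; group
  obtain ⟨c, d, k, h2⟩ := (SzRel.ofGood H).exists_ud ((SzRel.ofGood H).u_mem 0 a)
    ((SzRel.ofGood H).u_ne_one ha) (by rw [h1]; exact (SzRel.ofGood H).u_mem 0 a)
  have h3 : t' * t' = 1 := by
    rw [ht']
    calc g * t * g⁻¹ * (g * t * g⁻¹) = g * (t * t) * g⁻¹ := by group
      _ = 1 := by rw [ht]; group
  obtain ⟨hc, hk⟩ := inv_borel (SzRel.ofGood H) (by rw [← h2]; exact h3)
  rw [hc, hk, (SzRel.ofGood H).d_one, mul_one] at h2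
  have h2 : t' = H.u 0 d := h2
  refine ⟨g, a, d, ha, ?_, hg, h2⟩
  rintro rfl
  rw [H.u_zero, ht'] at h2
  apply ht1
  have : t = g⁻¹ * (g * t * g⁻¹) * g := by group
  rw [this, h2]
  group

/-- two elements which are commuting involutions modulo `Q` have the same centralizer in `Q` -/
theorem martineau_fixed {G : Type v} [Group G] [Finite G] (Q : Subgroup G) [Q.Normal] (hQ : IsPGroup 2 Q)
    (hS : Cfsg.Lie.IsoSuzuki (G ⧸ Q)) (hf : ∀ g : G, orderOf g = 5 → ∀ x ∈ Q, g * x = x * g → x = 1)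
    (s t : G) (hs : s * s ∈ Q) (ht : t * t ∈ Q) (hs1 : s ∉ Q) (ht1 : t ∉ Q) (hst : s * t * s⁻¹ * t⁻¹ ∈ Q)
    (x : G) (hx : x ∈ Q) (h : s * x = x * s) : t * x = x * t := by
  obtain ⟨F, _, _, θ, e, H, p, hp, rfl, hθ⟩ := exists_hom_sz Q hS
  obtain ⟨hab, h2⟩ := martineau_hom H hθ p hp hQ hf
  rw [MonoidHom.mem_ker, map_mul] at hs ht
  rw [MonoidHom.mem_ker] at hs1 ht1
  rw [MonoidHom.mem_ker, map_mul, map_mul, map_mul, map_inv, map_inv, mul_inv_eq_one,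
    mul_inv_eq_iff_eq_mul] at hst
  obtain ⟨g, a, b, ha, hb, hga, hgb⟩ := exists_conj H (p s) (p t) hs ht hs1 ht1 hst
  have hc : ∀ x y : p.ker, x * y = y * x := fun x y => Subtype.ext (hab x x.2 y y.2)
  obtain ⟨ρ, hρ⟩ := exists_rho p hp p.ker hab
  have h5 := f5_of_free H p hp hQ hf le_rfl hc ρ hρ
  have hfin : Finite (AbM hc ρ) := inferInstanceAs (Finite p.ker)
  have hE : E2 (AbM hc ρ) := by
    suffices key : ∀ q : p.ker, AbM.of hc ρ q + AbM.of hc ρ q = 0 from fun q => key (AbM.to hc ρ q)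
    intro q
    rw [← AbM.of_mul, ← AbM.of_one]
    congr 1
    exact Subtype.ext (h2 q q.2)
  set q : p.ker := ⟨x, hx⟩ with hq
  have hsq : ρ (p s) q = q := by
    apply Subtype.ext
    rw [hρ, hq]
    show s * x * s⁻¹ = x
    rw [h, mul_inv_cancel_right]
  have hrr : ∀ (c : F) (r : p.ker), rr H c • AbM.of hc ρ r = AbM.of hc ρ (ρ (H.u 0 c) r) - AbM.of hc ρ r := by
    intro c r
    rw [rr_smul]
    congr 1
    exact AbM.smul_def hc ρ _ r
  have e1 : rr H a • AbM.of hc ρ (ρ g q) = 0 := by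
    rw [hrr, ← hga, sub_eq_zero]
    congr 1
    rw [map_mul, map_mul, map_inv]
    show ρ g (ρ (p s) ((ρ g)⁻¹ (ρ g q))) = ρ g q
    rw [MulAut.inv_apply_self, hsq]
  obtain ⟨v, hv⟩ := ker_rr H hE h5 ha e1
  have e2 : rr H b • AbM.of hc ρ (ρ g q) = 0 := by
    rw [hv]
    exact rr_rr_zero H hE h5 b a v
  rw [hrr, ← hgb, sub_eq_zero] at e2
  have e3 : ρ (g * p t * g⁻¹) (ρ g q) = ρ g q := e2
  rw [map_mul, map_mul, map_inv] at e3
  have e4 : ρ g (ρ (p t) ((ρ g)⁻¹ (ρ g q))) = ρ g q := e3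
  rw [MulAut.inv_apply_self] at e4
  have e5 := (ρ g).injective e4
  have e6 := congrArg Subtype.val e5
  rw [hρ, hq] at e6
  exact mul_inv_eq_iff_eq_mul.mp e6

end Cfsg.Agent.H572.SzFree
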