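import Mathlib
import Cfsg.Agent.ThreePrime.SzFacts

/-!
# Martineau's theorem for the Suzuki groups, part A: the natural module

`mv g z` is the action of `g ∈ Sz(F)` on column vectors. We show that an invariant additive subgroup of `F ^ 4` is
trivial, and describe the maps commuting with the Sylow 2-subgroup that occur later.
-/

set_option autoImplicit false

namespace Cfsg.Agent.H572.SzMod

open scoped Matrix
open Cfsg.Agent.LieRecognition.SzMatrix

variable {F : Type*} [Field F] {θ : F →+* F} {e : ℕ}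

/-- the action on column vectors -/
def mv (g : ↥(Cfsg.Lie.Sz F e)) (z : Fin 4 → F) : Fin 4 → F := g.1.1 *ᵥ z

theorem mv_mul (g h : ↥(Cfsg.Lie.Sz F e)) (z : Fin 4 → F) : mv (g * h) z = mv g (mv h z) := by
  show (g.1 * h.1).1 *ᵥ z = g.1.1 *ᵥ (h.1.1 *ᵥ z)
  rw [Units.val_mul, Matrix.mulVec_mulVec]

theorem mv_one (z : Fin 4 → F) : mv (1 : ↥(Cfsg.Lie.Sz F e)) z = z := by
  show (1 : GL (Fin 4) F).1 *ᵥ z = z
  rw [Units.val_one, Matrix.one_mulVec]

theorem mv_add (g : ↥(Cfsg.Lie.Sz F e)) (y z : Fin 4 → F) : mv g (y + z) = mv g y + mv g z :=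
  Matrix.mulVec_add _ _ _

theorem mv_zero (g : ↥(Cfsg.Lie.Sz F e)) : mv g 0 = 0 := Matrix.mulVec_zero _

theorem mv_u (H : Good F θ e) (a b : F) (z : Fin 4 → F) : mv (H.u a b) z =
    ![z 0 + a * z 1 + b * z 2 + (a * b + a ^ 2 * θ a + θ b) * z 3,
      z 1 + θ a * z 2 + (b + a * θ a) * z 3, z 2 + a * z 3, z 3] := by
  show Umat θ a b *ᵥ z = _
  rw [Umat_def]
  ext i
  fin_cases i <;> simp [Matrix.mulVec, dotProduct, Fin.sum_univ_four]

theorem mv_d (H : Good F θ e) (k : Fˣ) (z : Fin 4 → F) : mv (H.d k) z =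
    ![k * z 0, θ k * (k : F)⁻¹ * z 1, k * (θ k)⁻¹ * z 2, (k : F)⁻¹ * z 3] := by
  show Dmat θ k *ᵥ z = _
  rw [Dmat_def]
  ext i
  fin_cases i <;> simp [Matrix.mulVec, dotProduct, Fin.sum_univ_four]

theorem mv_w (H : Good F θ e) (z : Fin 4 → F) : mv H.w z = ![z 3, z 2, z 1, z 0] := by
  show J F *ᵥ z = _
  ext i
  fin_cases i <;> simp [J, Matrix.mulVec, dotProduct, Fin.sum_univ_four]

/-- `u(0,b) - 1` on vectors -/
def rv (θ : F →+* F) (b : F) (z : Fin 4 → F) : Fin 4 → F := ![b * z 2 + θ b * z 3, b * z 3, 0, 0]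

theorem mv_u_zero (H : Good F θ e) (b : F) (z : Fin 4 → F) : mv (H.u 0 b) z = z + rv θ b z := by
  rw [mv_u, rv]
  ext i
  fin_cases i <;> simp <;> ring

theorem rv_add (b : F) (y z : Fin 4 → F) : rv θ b (y + z) = rv θ b y + rv θ b z := by
  ext i
  fin_cases i <;> simp [rv] <;> ring

theorem rv_rv (a b : F) (z : Fin 4 → F) : rv θ a (rv θ b z) = 0 := by
  ext i
  fin_cases i <;> simp [rv]

theorem rv_eq_zero {b : F} (hb : b ≠ 0) {z : Fin 4 → F} : rv θ b z = 0 ↔ z 2 = 0 ∧ z 3 = 0 := by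
  constructor
  · intro h
    have h1 : b * z 3 = 0 := congrFun h 1
    have h3 : z 3 = 0 := (mul_eq_zero.mp h1).resolve_left hb
    have h0 : b * z 2 + θ b * z 3 = 0 := congrFun h 0
    rw [h3, mul_zero, add_zero] at h0
    exact ⟨(mul_eq_zero.mp h0).resolve_left hb, h3⟩
  · rintro ⟨h2, h3⟩
    ext i
    fin_cases i <;> simp [rv, h2, h3]

/-- an additive subgroup of `F ^ 4` invariant under `Sz(F)` is trivial -/
theorem inv_subgroup (H : Good F θ e) (N : AddSubgroup (Fin 4 → F))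
    (hN : ∀ (g : ↥(Cfsg.Lie.Sz F e)) (z : Fin 4 → F), z ∈ N → mv g z ∈ N) {z : Fin 4 → F} (hz : z ∈ N)
    (hz0 : z ≠ 0) : N = ⊤ := by
  have hr : ∀ (b : F) (y : Fin 4 → F), y ∈ N → rv θ b y ∈ N := by
    intro b y hy
    have h1 := N.sub_mem (hN (H.u 0 b) y hy) hy
    rwa [mv_u_zero, add_sub_cancel_left] at h1
  have hw : ∀ y : Fin 4 → F, y ∈ N → ![y 3, y 2, y 1, y 0] ∈ N := by
    intro y hy
    have h1 := hN H.w y hy
    rwa [mv_w] at h1
  -- a vector with nonzero coordinate 3 or 2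
  have step1 : ∀ y : Fin 4 → F, y ∈ N → (y 2 ≠ 0 ∨ y 3 ≠ 0) → ∀ x : F, ![x, 0, 0, 0] ∈ N := by
    intro y hy h x
    by_cases h3 : y 3 = 0
    · have h2 : y 2 ≠ 0 := by
        rcases h with h | h
        · exact h
        · exact absurd h3 h
      have h4 := hr (x / y 2) y hy
      have h5 : rv θ (x / y 2) y = ![x, 0, 0, 0] := by
        ext i
        fin_cases i <;> simp [rv, h3, h2]
      rwa [h5] at h4
    · have h4 := hr 1 y hy
      have h5 := N.sub_mem (hN (H.u (x / y 3) 0) _ h4) h4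
      have h6 : mv (H.u (x / y 3) 0) (rv θ 1 y) - rv θ 1 y = ![x, 0, 0, 0] := by
        rw [mv_u]
        ext i
        fin_cases i <;> simp [rv, h3]
      rwa [h6] at h5
  have e0 : ∀ x : F, ![x, 0, 0, 0] ∈ N := by
    by_cases h : z 2 ≠ 0 ∨ z 3 ≠ 0
    · exact step1 z hz h
    · push Not at h
      have h1 := hw z hz
      refine step1 _ h1 ?_
      by_contra h2
      push Not at h2
      apply hz0
      ext i
      have h20 : z 1 = 0 := h2.1
      have h21 : z 0 = 0 := h2.2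
      fin_cases i
      · exact h21
      · exact h20
      · exact h.1
      · exact h.2
  have e3 : ∀ x : F, ![0, 0, 0, x] ∈ N := by
    intro x
    have := hw _ (e0 x)
    simpa using this
  have e1 : ∀ x : F, ![0, x, 0, 0] ∈ N := by
    intro x
    have h1 := hr x _ (e3 1)
    have h2 : rv θ x ![0, 0, 0, 1] - ![θ x, 0, 0, 0] = ![0, x, 0, 0] := by
      ext i
      fin_cases i <;> simp [rv]
    rw [← h2]
    exact N.sub_mem h1 (e0 _)
  have e2 : ∀ x : F, ![0, 0, x, 0] ∈ N := by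
    intro x
    have := hw _ (e1 x)
    simpa using this
  rw [eq_top_iff]
  intro y _
  have h1 : y = ![y 0, 0, 0, 0] + ![0, y 1, 0, 0] + ![0, 0, y 2, 0] + ![0, 0, 0, y 3] := by
    ext i
    fin_cases i <;> simp
  rw [h1]
  exact N.add_mem (N.add_mem (N.add_mem (e0 _) (e1 _)) (e2 _)) (e3 _)

/-- the shape of the maps which occur later -/
theorem shape (H : Good F θ e) (φ : (Fin 4 → F) →+ (Fin 4 → F))
    (hT : ∀ (a : F) (z : Fin 4 → F), φ (mv (H.u a 0) z) = mv (H.u a 0) (φ z))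
    (hk : ∀ x y : F, φ ![x, y, 0, 0] = 0) (hi : ∀ z, φ z 2 = 0 ∧ φ z 3 = 0) :
    ∃ (ψ : F →+ F) (c : F), ∀ z, φ z = ![ψ (z 3) + c * z 2, c * z 3, 0, 0] := by
  -- `φ` only depends on the last two coordinates
  have h1 : ∀ z, φ z = φ ![0, 0, z 2, 0] + φ ![0, 0, 0, z 3] := by
    intro z
    have : z = ![z 0, z 1, 0, 0] + (![0, 0, z 2, 0] + ![0, 0, 0, z 3]) := by
      ext i
      fin_cases i <;> simp
    conv_lhs => rw [this]
    rw [map_add, map_add, hk, zero_add]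
  have hTz : ∀ (a : F) (z : Fin 4 → F), mv (H.u a 0) z = ![z 0 + a * z 1 + (a ^ 2 * θ a) * z 3,
      z 1 + θ a * z 2 + (a * θ a) * z 3, z 2 + a * z 3, z 3] := by
    intro a z
    rw [mv_u]
    ext i
    fin_cases i <;> simp
  -- the map on `e₂`
  have h2 : ∀ x y : F, φ ![0, 0, x * y, 0] 0 = x * φ ![0, 0, 0, y] 1 ∧ φ ![0, 0, x * y, 0] 1 = 0 := by
    intro x y
    have h3 := hT x ![0, 0, 0, y]
    rw [hTz, hTz, h1] at h3
    have h4 := congrFun h3 0
    have h5 := congrFun h3 1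
    have h6 := hi ![0, 0, 0, y]
    simp only [Pi.add_apply, Matrix.cons_val_zero, Matrix.cons_val_one, Matrix.cons_val, mul_zero,
      add_zero, zero_add, h6.1, h6.2] at h4 h5
    constructor
    · linear_combination h4
    · linear_combination h5
  refine ⟨⟨⟨fun x => φ ![0, 0, 0, x] 0, ?_⟩, ?_⟩, φ ![0, 0, 0, 1] 1, ?_⟩
  · have : (![0, 0, 0, 0] : Fin 4 → F) = 0 := by
      ext i
      fin_cases i <;> rfl
    rw [this, map_zero]
    rfl
  · intro x y
    have : (![0, 0, 0, x + y] : Fin 4 → F) = ![0, 0, 0, x] + ![0, 0, 0, y] := by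
      ext i
      fin_cases i <;> simp
    show φ ![0, 0, 0, x + y] 0 = _
    rw [this, map_add]
    rfl
  · intro z
    have hq : ∀ y : F, φ ![0, 0, 0, y] 1 = φ ![0, 0, 0, 1] 1 * y := by
      intro y
      have ha := (h2 1 y).1
      have hb := (h2 y 1).1
      rw [one_mul] at ha
      rw [mul_one] at hb
      rw [one_mul] at ha
      rw [← ha, hb, mul_comm]
    ext i
    rw [h1 z]
    fin_cases i
    · show φ ![0, 0, z 2, 0] 0 + φ ![0, 0, 0, z 3] 0 = φ ![0, 0, 0, z 3] 0 + φ ![0, 0, 0, 1] 1 * z 2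
      have := (h2 (z 2) 1).1
      rw [mul_one] at this
      rw [this]
      ring
    · show φ ![0, 0, z 2, 0] 1 + φ ![0, 0, 0, z 3] 1 = φ ![0, 0, 0, 1] 1 * z 3
      have := (h2 (z 2) 1).2
      rw [mul_one] at this
      rw [this, zero_add, hq]
    · show φ ![0, 0, z 2, 0] 2 + φ ![0, 0, 0, z 3] 2 = 0
      rw [(hi _).1, (hi _).1, add_zero]
    · show φ ![0, 0, z 2, 0] 3 + φ ![0, 0, 0, z 3] 3 = 0
      rw [(hi _).2, (hi _).2, add_zero]

end Cfsg.Agent.H572.SzMod
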