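import Mathlib
import Cfsg.Agent.H572.SzModA

/-!
# Martineau's theorem for the Suzuki groups, part B: irreducible modules

We work with modules over the integral group ring of `Sz(F)`. A finite simple module of exponent two on which the
elements of order 5 act freely (`F5`) is the natural module.
-/

set_option autoImplicit false

namespace Cfsg.Agent.H572.SzMod

open scoped Matrix
open Cfsg.Agent.LieRecognition.SzMatrix
open Cfsg.Agent.ThreePrime

/-- the integral group ring -/
abbrev Rg (F : Type*) [Field F] (e : ℕ) := MonoidAlgebra ℤ ↥(Cfsg.Lie.Sz F e)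

variable {F : Type*} [Field F] {θ : F →+* F} {e : ℕ}

/-- a group element in the group ring -/
noncomputable def gr (g : ↥(Cfsg.Lie.Sz F e)) : Rg F e := MonoidAlgebra.of ℤ _ g

theorem gr_mul (g h : ↥(Cfsg.Lie.Sz F e)) : gr (g * h) = gr g * gr h := map_mul _ _ _

theorem gr_one : gr (1 : ↥(Cfsg.Lie.Sz F e)) = 1 := map_one _

section module

variable {A : Type*} [AddCommGroup A] [Module (Rg F e) A]

theorem gr_smul (g h : ↥(Cfsg.Lie.Sz F e)) (v : A) : gr (g * h) • v = gr g • gr h • v := by
  rw [gr_mul, mul_smul]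

theorem one_gr_smul (v : A) : gr (1 : ↥(Cfsg.Lie.Sz F e)) • v = v := by
  rw [gr_one, one_smul]

theorem smul_mem_of (N : AddSubgroup A) (hN : ∀ (g : ↥(Cfsg.Lie.Sz F e)) (v : A), v ∈ N → gr g • v ∈ N)
    (r : Rg F e) {v : A} (hv : v ∈ N) : r • v ∈ N := by
  induction r using MonoidAlgebra.induction_on with
  | of g => exact hN g v hv
  | add x y hx hy =>
    rw [add_smul]
    exact N.add_mem hx hy
  | smul n x hx =>
    rw [zsmul_eq_mul, mul_smul]
    have : ∀ n : ℤ, ∀ w : A, w ∈ N → (n : Rg F e) • w ∈ N := by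
      intro n w hw
      rw [Int.cast_smul_eq_zsmul]
      exact N.zsmul_mem hw n
    exact this n _ hx

/-- invariant additive subgroups as submodules -/
def mkSub (N : AddSubgroup A) (hN : ∀ (g : ↥(Cfsg.Lie.Sz F e)) (v : A), v ∈ N → gr g • v ∈ N) :
    Submodule (Rg F e) A :=
  { N with smul_mem' := fun r _ hv => smul_mem_of N hN r hv }

theorem mem_mkSub (N : AddSubgroup A) (hN : ∀ (g : ↥(Cfsg.Lie.Sz F e)) (v : A), v ∈ N → gr g • v ∈ N) (v : A) :
    v ∈ mkSub N hN ↔ v ∈ N := Iff.rfl

end module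

/-- the element of order 5 -/
noncomputable def yy (H : Good F θ e) : ↥(Cfsg.Lie.Sz F e) := H.w * H.u 0 1

/-- the relation satisfied by the element of order 5 when it acts freely -/
def F5 (H : Good F θ e) (A : Type*) [AddCommGroup A] [Module (Rg F e) A] : Prop :=
  ∀ v : A, v + gr (yy H) • v + gr (yy H ^ 2) • v + gr (yy H ^ 3) • v + gr (yy H ^ 4) • v = 0

/-- exponent two -/
def E2 (A : Type*) [AddCommGroup A] : Prop := ∀ v : A, v + v = 0

/-- being isomorphic to the natural module -/
def IsNat (F : Type*) [Field F] (e : ℕ) (A : Type*) [AddCommGroup A] [Module (Rg F e) A] : Prop :=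
  ∃ ι : (Fin 4 → F) ≃+ A, ∀ (g : ↥(Cfsg.Lie.Sz F e)) (z : Fin 4 → F), ι (mv g z) = gr g • ι z

/-- a `2`-group acting on a nontrivial finite group of exponent two has a nonzero fixed point -/
theorem exists_fixed {P M : Type*} [Group P] [AddCommGroup M] [Finite M] [DistribMulAction P M]
    (hP : IsPGroup 2 P) (h2 : E2 M) [Nontrivial M] : ∃ v : M, v ≠ 0 ∧ ∀ g : P, g • v = v := by
  obtain ⟨v, hv⟩ := exists_ne (0 : M)
  have h3 : 2 ∣ Nat.card M := by
    have h4 : addOrderOf v = 2 := by
      apply addOrderOf_eq_prime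
      · rw [two_nsmul]; exact h2 v
      · exact hv
    rw [← h4]
    exact addOrderOf_dvd_natCard v
  have : Fact (Nat.Prime 2) := ⟨Nat.prime_two⟩
  obtain ⟨b, hb, hb'⟩ := hP.exists_fixed_point_of_prime_dvd_card_of_fixed_point M h3
    (a := (0 : M)) (by intro g; exact smul_zero g)
  exact ⟨b, hb'.symm, fun g => hb g⟩

theorem exists_hom {A : Type*} [AddCommGroup A] (h2 : E2 A) {v : A} (hv : v ≠ 0) :
    ∃ f : A →+ ZMod 2, f v ≠ 0 := by
  let _ : Module (ZMod 2) A := AddCommGroup.zmodModule (n := 2) (fun x => by rw [two_nsmul]; exact h2 x)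
  by_contra h
  push Not at h
  apply hv
  rw [← Module.forall_dual_apply_eq_zero_iff (ZMod 2)]
  intro φ
  exact h φ.toAddMonoidHom

section fixed

variable {A : Type*} [AddCommGroup A] [Module (Rg F e) A]

/-- a nonzero fixed vector of the Sylow 2-subgroup -/
theorem exists_fixed_T (H : Good F θ e) [Finite A] [Nontrivial A] (h2 : E2 A) :
    ∃ v : A, v ≠ 0 ∧ ∀ a b : F, gr (H.u a b) • v = v := by
  let _ : DistribMulAction (SzRel.ofGood H).T A :=
    { smul := fun t v => gr t.1 • v
      one_smul := fun v => one_gr_smul v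
      mul_smul := fun g h v => gr_smul g.1 h.1 v
      smul_zero := fun g => smul_zero (gr g.1)
      smul_add := fun g v w => smul_add (gr g.1) v w }
  obtain ⟨v, hv, h⟩ := exists_fixed (SzRel.ofGood H).isPGroup h2
  exact ⟨v, hv, fun a b => h ⟨H.u a b, (SzRel.ofGood H).u_mem a b⟩⟩

/-- a nonzero functional fixed by the Sylow 2-subgroup -/
theorem exists_functional (H : Good F θ e) [Finite A] [Nontrivial A] (h2 : E2 A) :
    ∃ φ : A →+ ZMod 2, φ ≠ 0 ∧ ∀ (a b : F) (v : A), φ (gr (H.u a b) • v) = φ v := by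
  let _ : DistribMulAction (SzRel.ofGood H).T (A →+ ZMod 2) :=
    { smul := fun t φ => ⟨⟨fun v => φ (gr (t⁻¹).1 • v), by rw [smul_zero, map_zero]⟩,
        fun v w => by show φ _ = _; rw [smul_add, map_add]⟩
      one_smul := fun φ => by
        ext v
        show φ (gr ((1 : (SzRel.ofGood H).T)⁻¹).1 • v) = φ v
        rw [inv_one]
        exact congrArg φ (one_gr_smul v)
      mul_smul := fun g h φ => by
        ext v
        show φ (gr ((g * h)⁻¹).1 • v) = φ (gr (h⁻¹).1 • gr (g⁻¹).1 • v)
        rw [mul_inv_rev, ← gr_smul]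
        rfl
      smul_zero := fun g => by
        ext v
        rfl
      smul_add := fun g v w => by
        ext v
        rfl }
  have h2' : E2 (A →+ ZMod 2) := by
    intro φ
    ext v
    exact CharTwo.add_self_eq_zero _
  have _i1 : Finite (A →+ ZMod 2) := Finite.of_injective (fun f : A →+ ZMod 2 => (f : A → ZMod 2)) (by
    intro f g h
    exact DFunLike.coe_injective h)
  have _i2 : Nontrivial (A →+ ZMod 2) := by
    obtain ⟨v, hv⟩ := exists_ne (0 : A)
    obtain ⟨f, hf⟩ := exists_hom h2 hv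
    refine ⟨f, 0, fun h => hf ?_⟩
    rw [h]
    rfl
  obtain ⟨φ, hφ, h⟩ := exists_fixed (SzRel.ofGood H).isPGroup h2'
  refine ⟨φ, hφ, fun a b v => ?_⟩
  have h3 := h ⟨H.u a b, (SzRel.ofGood H).u_mem a b⟩⁻¹
  have h4 := DFunLike.congr_fun h3 v
  exact h4

end fixed

end Cfsg.Agent.H572.SzMod
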