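import Mathlib
import Cfsg.Agent.H572.SzModB

/-!
# Martineau's theorem for the Suzuki groups, part C: finite simple `F5`-modules are natural
-/

set_option autoImplicit false

namespace Cfsg.Agent.H572.SzMod

open scoped Matrix
open Cfsg.Agent.LieRecognition.SzMatrix
open Cfsg.Agent.ThreePrime

variable {F : Type*} [Field F] {θ : F →+* F} {e : ℕ}

/-- the first basis vector -/
def e0 (F : Type*) [Field F] : Fin 4 → F := ![1, 0, 0, 0]

theorem mv_y (H : Good F θ e) (z : Fin 4 → F) : mv (yy H) z = ![z 3, z 2, z 1 + z 3, z 0 + z 2 + z 3] := by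
  rw [yy, mv_mul, mv_w, mv_u]
  ext i
  fin_cases i <;> simp

theorem mv_y1 (H : Good F θ e) : mv (yy H) (e0 F) = ![0, 0, 0, 1] := by
  rw [mv_y]
  ext i
  fin_cases i <;> simp [e0]

theorem mv_y2 (H : Good F θ e) : mv (yy H ^ 2) (e0 F) = ![1, 0, 1, 1] := by
  rw [pow_two, mv_mul, mv_y1, mv_y]
  ext i
  fin_cases i <;> simp

theorem mv_y3 (H : Good F θ e) : mv (yy H ^ 3) (e0 F) = ![1, 1, 1, 1] := by
  rw [pow_succ', mv_mul, mv_y2, mv_y]
  ext i
  fin_cases i <;> simp [H.add_self]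

theorem mv_y4 (H : Good F θ e) : mv (yy H ^ 4) (e0 F) = ![1, 1, 0, 1] := by
  rw [pow_succ', mv_mul, mv_y3, mv_y]
  ext i
  fin_cases i <;> simp [H.add_self]

theorem mv_d_3 (H : Good F θ e) (k : Fˣ) (z : Fin 4 → F) : mv (H.d k) z 3 = (k : F)⁻¹ * z 3 := by
  rw [mv_d]; rfl

theorem mv_dwu_3 (H : Good F θ e) (x : Fˣ) (a : F) (z : Fin 4 → F) :
    mv (H.d x⁻¹ * H.w * H.u a 0) z 3 = x * (z 0 + a * z 1 + a ^ 2 * θ a * z 3) := by
  rw [mv_mul, mv_mul, mv_u, mv_w, mv_d]
  simp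

theorem d_mul_u' (H : Good F θ e) (k : Fˣ) (a b : F) : ∃ a' b', H.u a b * H.d k = H.d k * H.u a' b' := by
  have h := H.d_mul_u k⁻¹ a b
  refine ⟨a * ((k⁻¹ : Fˣ) : F) ^ 2 * (θ ((k⁻¹ : Fˣ) : F))⁻¹, b * θ ((k⁻¹ : Fˣ) : F), ?_⟩
  rw [← H.d_inv] at h
  rw [eq_comm, ← eq_inv_mul_iff_mul_eq, ← mul_assoc, h, inv_mul_cancel_right]

/-- the Bruhat decomposition in the form used here -/
theorem cases_g (H : Good F θ e) (γ : ↥(Cfsg.Lie.Sz F e)) :
    (∃ a b k, γ = H.u a b * H.d k ∧ mv γ (e0 F) 3 = 0) ∨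
    ∃ a b c d k, γ = H.u a b * (H.w * H.d k) * H.u c d ∧ mv γ (e0 F) 3 = (k : F) := by
  rcases (SzRel.ofGood H).bruhat γ with ⟨a, b, k, h⟩ | ⟨a, b, c, d, k, h⟩
  · left
    refine ⟨a, b, k, h, ?_⟩
    have h : γ = H.u a b * H.d k := h
    rw [h, mv_mul, mv_d, mv_u]
    simp [e0]
  · right
    have h : γ = H.u a b * H.w * (H.u c d * H.d k) := h
    obtain ⟨c', d', h'⟩ := d_mul_u' H k c d
    refine ⟨a, b, c', d', k, ?_, ?_⟩
    · rw [h, h']
      simp only [mul_assoc]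
    · rw [h, mv_mul, mv_mul, mv_mul, mv_d, mv_u, mv_w, mv_u]
      simp [e0]

section

variable {A : Type*} [AddCommGroup A] [Module (Rg F e) A]

/-- the key computation: the matrix coefficient is an additive function of the `(3,0)`-entry -/
theorem coeff (H : Good F θ e) [Finite F] (h5 : F5 H A) {v0 : A}
    (hv0 : ∀ a b : F, gr (H.u a b) • v0 = v0) {φ : A →+ ZMod 2}
    (hφ : ∀ (a b : F) (v : A), φ (gr (H.u a b) • v) = φ v) :
    ∃ f : F →+ ZMod 2, ∀ γ : ↥(Cfsg.Lie.Sz F e), φ (gr γ • v0) = f (mv γ (e0 F) 3) := by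
  classical
  -- the function
  obtain ⟨f, hf⟩ : ∃ f : F → ZMod 2, f = fun x => if h : x = 0 then 0 else φ (gr (H.w * H.d (Units.mk0 x h)) • v0) :=
    ⟨_, rfl⟩
  have hf0 : f 0 = 0 := by rw [hf]; simp
  have hfk : ∀ k : Fˣ, f k = φ (gr (H.w * H.d k) • v0) := by
    intro k
    rw [hf]
    simp [k.ne_zero]
  have hc' : ∀ γ : ↥(Cfsg.Lie.Sz F e), mv γ (e0 F) 3 ≠ 0 → φ (gr γ • v0) = f (mv γ (e0 F) 3) := by
    intro γ h
    rcases cases_g H γ with ⟨a, b, k, h1, h2⟩ | ⟨a, b, c, d, k, h1, h2⟩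
    · exact absurd h2 h
    · rw [h2, hfk, h1, gr_smul, hv0, gr_smul, hφ]
  have rel : ∀ γ : ↥(Cfsg.Lie.Sz F e), φ (gr γ • v0) + φ (gr (γ * yy H) • v0) + φ (gr (γ * yy H ^ 2) • v0) +
      φ (gr (γ * yy H ^ 3) • v0) + φ (gr (γ * yy H ^ 4) • v0) = 0 := by
    intro γ
    rw [gr_smul, gr_smul, gr_smul, gr_smul, ← map_add, ← map_add, ← map_add, ← map_add, ← smul_add, ← smul_add,
      ← smul_add, ← smul_add, h5, smul_zero, map_zero]
  have hB : ∀ k : Fˣ, φ (gr (H.d k) • v0) = 0 := by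
    intro k
    have h1 := rel (H.d k)
    have hk : ((k : F)⁻¹) ≠ 0 := inv_ne_zero k.ne_zero
    have e1 : mv (H.d k * yy H) (e0 F) 3 = (k : F)⁻¹ := by
      rw [mv_mul, mv_y1, mv_d_3]; simp
    have e2 : mv (H.d k * yy H ^ 2) (e0 F) 3 = (k : F)⁻¹ := by
      rw [mv_mul, mv_y2, mv_d_3]; simp
    have e3 : mv (H.d k * yy H ^ 3) (e0 F) 3 = (k : F)⁻¹ := by
      rw [mv_mul, mv_y3, mv_d_3]; simp
    have e4 : mv (H.d k * yy H ^ 4) (e0 F) 3 = (k : F)⁻¹ := by
      rw [mv_mul, mv_y4, mv_d_3]; simp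
    rw [hc' (H.d k * yy H) (by rw [e1]; exact hk), hc' (H.d k * yy H ^ 2) (by rw [e2]; exact hk),
      hc' (H.d k * yy H ^ 3) (by rw [e3]; exact hk), hc' (H.d k * yy H ^ 4) (by rw [e4]; exact hk),
      e1, e2, e3, e4, add_assoc, add_assoc, add_assoc,
      CharTwo.add_self_eq_zero, add_zero, CharTwo.add_self_eq_zero, add_zero] at h1
    exact h1
  have hc : ∀ γ : ↥(Cfsg.Lie.Sz F e), φ (gr γ • v0) = f (mv γ (e0 F) 3) := by
    intro γ
    by_cases h : mv γ (e0 F) 3 = 0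
    · rcases cases_g H γ with ⟨a, b, k, h1, h2⟩ | ⟨a, b, c, d, k, h1, h2⟩
      · rw [h2, hf0, h1, gr_smul, hφ, hB]
      · exfalso
        rw [h2] at h
        exact k.ne_zero h
    · exact hc' γ h
  -- additivity
  have hadd : ∀ x N : F, x ≠ 0 → f x + f (x * N) + f (x * (1 + N)) = 0 := by
    intro x N hx
    obtain ⟨a, ha⟩ : ∃ a : F, a ^ 2 * θ a = N := by
      by_cases hN : N = 0
      · exact ⟨0, by rw [hN]; simp⟩
      · obtain ⟨y, hy⟩ := (SzRel.ofGood H).theta_surj N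
        have hy : θ y = N := hy
        have hy0 : y ≠ 0 := by
          rintro rfl
          rw [map_zero] at hy
          exact hN hy.symm
        obtain ⟨k, hk⟩ := (SzRel.ofGood H).exists_mul_theta (Units.mk0 y hy0)
        have hk : (k : F) * θ k = y := hk
        refine ⟨k, ?_⟩
        rw [← hy, ← hk, map_mul, H.sq]
        ring
    have h1 := rel (H.d (Units.mk0 x hx)⁻¹ * H.w * H.u a 0)
    rw [hc, hc, hc, hc, hc] at h1
    rw [mv_mul _ (yy H), mv_mul _ (yy H ^ 2), mv_mul _ (yy H ^ 3), mv_mul _ (yy H ^ 4), mv_dwu_3, mv_dwu_3,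
      mv_dwu_3, mv_dwu_3, mv_dwu_3, mv_y1, mv_y2, mv_y3, mv_y4, ha] at h1
    have g0 : x * (e0 F 0 + a * e0 F 1 + N * e0 F 3) = x := by simp [e0]
    have g1 : x * ((![0, 0, 0, 1] : Fin 4 → F) 0 + a * (![0, 0, 0, 1] : Fin 4 → F) 1 +
      N * (![0, 0, 0, 1] : Fin 4 → F) 3) = x * N := by simp
    have g2 : x * ((![1, 0, 1, 1] : Fin 4 → F) 0 + a * (![1, 0, 1, 1] : Fin 4 → F) 1 +
      N * (![1, 0, 1, 1] : Fin 4 → F) 3) = x * (1 + N) := by simp
    have g3 : x * ((![1, 1, 1, 1] : Fin 4 → F) 0 + a * (![1, 1, 1, 1] : Fin 4 → F) 1 +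
      N * (![1, 1, 1, 1] : Fin 4 → F) 3) = x * (1 + a + N) := by simp
    have g4 : x * ((![1, 1, 0, 1] : Fin 4 → F) 0 + a * (![1, 1, 0, 1] : Fin 4 → F) 1 +
      N * (![1, 1, 0, 1] : Fin 4 → F) 3) = x * (1 + a + N) := by simp
    rw [Units.val_mk0, g0, g1, g2, g3, g4, add_assoc, CharTwo.add_self_eq_zero, add_zero] at h1
    exact h1
  refine ⟨⟨⟨f, hf0⟩, ?_⟩, hc⟩
  intro x y
  show f (x + y) = f x + f y
  by_cases hx : x = 0
  · rw [hx, zero_add, hf0, zero_add]
  · have h1 := hadd x (y / x) hx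
    have h2 : x * (y / x) = y := by field_simp
    have h3 : x * (1 + y / x) = x + y := by field_simp
    rw [h2, h3] at h1
    have h4 : f (x + y) + f (x + y) = 0 := CharTwo.add_self_eq_zero _
    linear_combination h4 - h1

/-- **finite simple modules with free action of the elements of order 5 are natural** -/
theorem simple_isNat (H : Good F θ e) [Finite F] [Finite A] [hs : IsSimpleModule (Rg F e) A] (h2 : E2 A)
    (h5 : F5 H A) : IsNat F e A := by
  classical
  have : Nontrivial A := IsSimpleModule.nontrivial (Rg F e) A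
  obtain ⟨v0, hv0, hv0T⟩ := exists_fixed_T H (A := A) h2
  obtain ⟨φ, hφ0, hφT⟩ := exists_functional H (A := A) h2
  obtain ⟨f, hf⟩ := coeff H h5 hv0T hφT
  -- a vector killed by all translates of `φ` is zero
  have hK : ∀ v : A, (∀ γ : ↥(Cfsg.Lie.Sz F e), φ (gr γ • v) = 0) → v = 0 := by
    let K : AddSubgroup A :=
      { carrier := {v | ∀ γ : ↥(Cfsg.Lie.Sz F e), φ (gr γ • v) = 0}
        zero_mem' := fun γ => by rw [smul_zero, map_zero]
        add_mem' := fun {v w} hv hw γ => by rw [smul_add, map_add, hv γ, hw γ, add_zero]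
        neg_mem' := fun {v} hv γ => by rw [smul_neg, map_neg, hv γ, neg_zero] }
    have hKi : ∀ (g : ↥(Cfsg.Lie.Sz F e)) (v : A), v ∈ K → gr g • v ∈ K := by
      intro g v hv γ
      rw [← gr_smul]
      exact hv (γ * g)
    rcases eq_bot_or_eq_top (mkSub K hKi) with h | h
    · intro v hv
      have : v ∈ mkSub K hKi := hv
      rw [h] at this
      exact this
    · exfalso
      apply hφ0
      ext v
      have hv : v ∈ mkSub K hKi := by rw [h]; trivial
      have := hv 1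
      rwa [one_gr_smul] at this
  -- the graph
  let gen : ↥(Cfsg.Lie.Sz F e) → (Fin 4 → F) × A := fun γ => (mv γ (e0 F), gr γ • v0)
  let Γ : AddSubgroup ((Fin 4 → F) × A) := AddSubgroup.closure (Set.range gen)
  have hgen : ∀ γ, gen γ ∈ Γ := fun γ => AddSubgroup.subset_closure ⟨γ, rfl⟩
  have hΓ : ∀ (g : ↥(Cfsg.Lie.Sz F e)) (p : (Fin 4 → F) × A), p ∈ Γ → (mv g p.1, gr g • p.2) ∈ Γ := by
    intro g p hp
    induction hp using AddSubgroup.closure_induction with
    | mem x hx =>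
      obtain ⟨γ, rfl⟩ := hx
      have h1 := hgen (g * γ)
      have h2 : gen (g * γ) = (mv g (gen γ).1, gr g • (gen γ).2) := by
        show (mv (g * γ) (e0 F), gr (g * γ) • v0) = _
        rw [mv_mul, gr_smul]
      rwa [h2] at h1
    | zero =>
      have : (mv g (0 : (Fin 4 → F) × A).1, gr g • (0 : (Fin 4 → F) × A).2) = 0 := by
        rw [Prod.fst_zero, Prod.snd_zero, mv_zero, smul_zero]
        rfl
      rw [this]
      exact zero_mem _
    | add x y _ _ hx hy =>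
      have h1 := add_mem hx hy
      have h2 : (mv g x.1, gr g • x.2) + (mv g y.1, gr g • y.2) = (mv g (x + y).1, gr g • (x + y).2) := by
        rw [Prod.fst_add, Prod.snd_add, mv_add, smul_add]
        rfl
      rwa [h2] at h1
    | neg x _ hx =>
      have h1 := neg_mem hx
      have h2 : -(mv g x.1, gr g • x.2) = (mv g (-x).1, gr g • (-x).2) := by
        rw [Prod.fst_neg, Prod.snd_neg, smul_neg]
        have : mv g (-x.1) = - mv g x.1 := Matrix.mulVec_neg _ _
        rw [this]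
        rfl
      rwa [h2] at h1
  have hΓf : ∀ p : (Fin 4 → F) × A, p ∈ Γ → ∀ γ : ↥(Cfsg.Lie.Sz F e), φ (gr γ • p.2) = f (mv γ p.1 3) := by
    intro p hp
    induction hp using AddSubgroup.closure_induction with
    | mem x hx =>
      obtain ⟨δ, rfl⟩ := hx
      intro γ
      show φ (gr γ • gr δ • v0) = f (mv γ (mv δ (e0 F)) 3)
      rw [← gr_smul, ← mv_mul]
      exact hf _
    | zero =>
      intro γ
      rw [Prod.fst_zero, Prod.snd_zero, mv_zero, smul_zero, map_zero, Pi.zero_apply, map_zero]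
    | add x y _ _ hx hy =>
      intro γ
      rw [Prod.fst_add, Prod.snd_add, mv_add, smul_add, map_add, hx, hy, Pi.add_apply, map_add]
    | neg x _ hx =>
      intro γ
      have : mv γ (-x.1) = - mv γ x.1 := Matrix.mulVec_neg _ _
      rw [Prod.fst_neg, Prod.snd_neg, smul_neg, map_neg, hx, this, Pi.neg_apply, map_neg]
  -- surjectivity of the projections
  have hp1 : ∀ z : Fin 4 → F, ∃ v : A, (z, v) ∈ Γ := by
    have h1 : Γ.map (AddMonoidHom.fst (Fin 4 → F) A) = ⊤ := by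
      refine inv_subgroup H _ ?_ (z := e0 F) ?_ ?_
      · rintro g z ⟨p, hp, rfl⟩
        exact ⟨_, hΓ g p hp, rfl⟩
      · refine ⟨gen 1, hgen 1, ?_⟩
        exact mv_one _
      · intro h
        have := congrFun h 0
        exact one_ne_zero this
    intro z
    have hz : z ∈ Γ.map (AddMonoidHom.fst (Fin 4 → F) A) := by rw [h1]; trivial
    obtain ⟨p, hp, rfl⟩ := hz
    exact ⟨p.2, hp⟩
  have hp2 : ∀ v : A, ∃ z : Fin 4 → F, (z, v) ∈ Γ := by
    have hi : ∀ (g : ↥(Cfsg.Lie.Sz F e)) (v : A), v ∈ Γ.map (AddMonoidHom.snd (Fin 4 → F) A) →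
        gr g • v ∈ Γ.map (AddMonoidHom.snd (Fin 4 → F) A) := by
      rintro g v ⟨p, hp, rfl⟩
      exact ⟨_, hΓ g p hp, rfl⟩
    rcases eq_bot_or_eq_top (mkSub _ hi) with h | h
    · exfalso
      apply hv0
      have h1 : v0 ∈ mkSub _ hi := ⟨gen 1, hgen 1, one_gr_smul v0⟩
      rw [h] at h1
      exact h1
    · intro v
      have hz : v ∈ mkSub _ hi := by rw [h]; trivial
      obtain ⟨p, hp, rfl⟩ := hz
      exact ⟨p.1, hp⟩
  have hu1 : ∀ v : A, ((0 : Fin 4 → F), v) ∈ Γ → v = 0 := by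
    intro v hv
    apply hK
    intro γ
    have := hΓf _ hv γ
    rw [this]
    show f (mv γ 0 3) = 0
    rw [mv_zero, Pi.zero_apply, map_zero]
  have hu2 : ∀ z : Fin 4 → F, (z, (0 : A)) ∈ Γ → z = 0 := by
    intro z hz
    by_contra hz0
    -- the vectors with this property form a nonzero invariant subgroup
    have h1 : Γ.comap (AddMonoidHom.inl (Fin 4 → F) A) = ⊤ := by
      refine inv_subgroup H _ ?_ (z := z) hz hz0
      intro g y hy
      have h2 := hΓ g _ hy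
      have h3 : (mv g ((AddMonoidHom.inl (Fin 4 → F) A) y).1, gr g • ((AddMonoidHom.inl (Fin 4 → F) A) y).2) =
          (mv g y, (0 : A)) := by
        show (mv g y, gr g • (0 : A)) = _
        rw [smul_zero]
      rw [h3] at h2
      exact h2
    have hf0 : ∀ x : F, f x = 0 := by
      intro x
      have h2 : (![0, 0, 0, x] : Fin 4 → F) ∈ Γ.comap (AddMonoidHom.inl (Fin 4 → F) A) := by rw [h1]; trivial
      have h3 := hΓf _ h2 1
      rw [mv_one] at h3
      have h4 : φ (gr (1 : ↥(Cfsg.Lie.Sz F e)) • (0 : A)) = f x := h3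
      rw [smul_zero, map_zero] at h4
      exact h4.symm
    apply hv0
    apply hK
    intro γ
    rw [hf, hf0]
  -- the isomorphism
  choose ι hι using hp1
  have hιu : ∀ (z : Fin 4 → F) (v : A), (z, v) ∈ Γ → ι z = v := by
    intro z v h
    have h1 := sub_mem (hι z) h
    have h2 : (z, ι z) - (z, v) = (0, ι z - v) := by
      rw [Prod.mk_sub_mk, sub_self]
    rw [h2] at h1
    exact sub_eq_zero.mp (hu1 _ h1)
  have hadd : ∀ y z, ι (y + z) = ι y + ι z := fun y z => hιu _ _ (add_mem (hι y) (hι z))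
  let ι' : (Fin 4 → F) →+ A := AddMonoidHom.mk' ι hadd
  have hbij : Function.Bijective ι' := by
    constructor
    · rw [injective_iff_map_eq_zero]
      intro z hz
      apply hu2
      have h1 := hι z
      have h2 : ι z = 0 := hz
      rwa [h2] at h1
    · intro v
      obtain ⟨z, hz⟩ := hp2 v
      exact ⟨z, hιu z v hz⟩
  refine ⟨AddEquiv.ofBijective ι' hbij, ?_⟩
  intro g z
  exact hιu _ _ (hΓ g _ (hι z))

end

end Cfsg.Agent.H572.SzMod
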