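import Mathlib
import Cfsg.Agent.H572.SzModA

/-!
# Martineau's theorem for the Suzuki groups, part D: functional equations over finite fields of characteristic two
-/

set_option autoImplicit false

namespace Cfsg.Agent.H572.SzMod

open Cfsg.Agent.LieRecognition.SzMatrix
open Cfsg.Agent.ThreePrime

variable {F : Type*} [Field F] {θ : F →+* F} {e : ℕ}

theorem exists_sqrt [Finite F] (h0 : (2 : F) = 0) (x : F) : ∃ y : F, y ^ 2 = x := by
  have : CharP F 2 := CharTwo.of_one_ne_zero_of_two_eq_zero one_ne_zero h0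
  have hs : Function.Surjective (frobenius F 2) :=
    Finite.surjective_of_injective (frobenius F 2).injective
  obtain ⟨y, hy⟩ := hs x
  exact ⟨y, hy⟩

/-- Hua's trick -/
theorem hua [Finite F] (h0 : (2 : F) = 0) (σ : F →+* F) (g : F → F) (hadd : ∀ x y, g (x + y) = g x + g y)
    (h1 : g 1 = 0) (hg : ∀ x, x ≠ 0 → g x = σ x * g (1 / x)) (x : F) : g x = 0 := by
  have hg0 : g 0 = 0 := by
    have := hadd 0 0
    rw [add_zero] at this
    exact left_eq_add.mp this
  obtain ⟨y, rfl⟩ := exists_sqrt h0 x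
  by_cases hy0 : y = 0
  · rw [hy0, zero_pow two_ne_zero, hg0]
  by_cases hy1 : 1 + y = 0
  · have : y = 1 := by linear_combination hy1 - h0
    rw [this, one_pow, h1]
  have hs0 : σ y ≠ 0 := fun h => hy0 ((map_eq_zero σ).mp h)
  have hs1 : 1 + σ y ≠ 0 := by
    intro h
    apply hy1
    apply (map_eq_zero σ).mp
    rw [map_add, map_one, h]
  have e1 := hg y hy0
  have e2 := hg (1 + y) hy1
  have e3 := hg (y + y ^ 2) (by
    have : y + y ^ 2 = y * (1 + y) := by ring
    rw [this]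
    exact mul_ne_zero hy0 hy1)
  have e4 : 1 / y + 1 / (1 + y) = 1 / (y + y ^ 2) := by
    have : y + y ^ 2 = y * (1 + y) := by ring
    rw [this]
    field_simp
    linear_combination y * h0
  have e5 : g (1 / y) + g (1 / (1 + y)) = g (1 / (y + y ^ 2)) := by rw [← hadd, e4]
  rw [hadd, h1, zero_add, map_add, map_one] at e2
  rw [hadd, map_add, map_pow] at e3
  -- multiply out
  have e6 : σ y * (1 + σ y) * (g (1 / y) + g (1 / (1 + y))) = (1 + σ y) * g y + σ y * g y := by
    linear_combination (- (1 + σ y)) * e1 - σ y * e2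
  rw [e5] at e6
  linear_combination e6 + e3 + σ y * g y * h0

theorem c_zero [Finite F] (h0 : (2 : F) = 0) (c : F → F → F) (c1 : ∀ a a' b, c (a + a') b = c a b + c a' b)
    (c2 : ∀ a b, c a b = c b a) (c3 : ∀ a, c a a = 0) (c4 : ∀ l a b, l ≠ 0 → c (l * a) (l * b) = l * c a b)
    (a b : F) : c a b = 0 := by
  have hg : ∀ x, c 1 x = 0 := by
    refine hua h0 (RingHom.id F) (fun x => c 1 x) ?_ (c3 1) ?_
    · intro x y
      show c 1 (x + y) = c 1 x + c 1 y
      rw [c2, c1, c2 x, c2 y]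
    · intro x hx
      show c 1 x = x * c 1 (1 / x)
      have := c4 x (1 / x) 1 hx
      rw [c2 1 (1 / x), ← this, mul_one, mul_one_div_cancel hx]
  by_cases ha : a = 0
  · have := c1 0 0 b
    rw [add_zero] at this
    rw [ha]
    exact left_eq_add.mp this
  · have := c4 a 1 (b / a) ha
    rw [mul_one, mul_div_cancel₀ _ ha, hg, mul_zero] at this
    exact this

theorem psi_zero [Finite F] (H : Good F θ e) (ψ : F → F → F → F)
    (s1 : ∀ a a' b x, ψ (a + a') b x = ψ a b x + ψ a' b x) (s2 : ∀ a b x, ψ a b x = ψ b a x)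
    (s3 : ∀ a x, ψ a a x = 0) (sx : ∀ a b x y, ψ a b (x + y) = ψ a b x + ψ a b y)
    (s4 : ∀ (k : Fˣ) (a b x : F), ψ (θ k * a) (θ k * b) ((k : F)⁻¹ * x) = k * ψ a b x)
    (s5 : ∀ a b x, a ≠ 0 → b ≠ 0 → ψ a b (b / a * x) = b / a * ψ a b x) (a b x : F) : ψ a b x = 0 := by
  have h0 := H.two
  have hz : ∀ b x, ψ 0 b x = 0 := by
    intro b x
    have := s1 0 0 b x
    rw [add_zero] at this
    exact left_eq_add.mp this
  have hb1 : ∀ a b b' x, ψ a (b + b') x = ψ a b x + ψ a b' x := by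
    intro a b b' x
    rw [s2, s1, s2 b, s2 b']
  have h1 : ∀ b x, ψ 1 b (b * x) = b * ψ 1 b x := by
    intro b x
    by_cases hb : b = 0
    · rw [hb, s2, hz, zero_mul]
    · have := s5 1 b x one_ne_zero hb
      rwa [div_one] at this
  have h2 : ∀ b c x, ψ 1 b (c * x) + c * ψ 1 b x = ψ 1 c (b * x) + b * ψ 1 c x := by
    intro b c x
    have e1 := h1 (b + c) x
    rw [add_mul, sx, hb1, hb1, h1, h1, hb1] at e1
    linear_combination e1 + (-(ψ 1 c (b * x)) + c * ψ 1 b x) * h0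
  obtain ⟨ζ, hζ⟩ := IsCyclic.exists_generator (α := Fˣ)
  have hpow : ∀ y : F, y = 0 ∨ ∃ n : ℕ, y = (ζ : F) ^ n := by
    intro y
    by_cases hy : y = 0
    · exact Or.inl hy
    · right
      have h3 := hζ (Units.mk0 y hy)
      rw [← mem_powers_iff_mem_zpowers] at h3
      obtain ⟨n, hn⟩ := h3
      refine ⟨n, ?_⟩
      have h4 := congrArg Units.val hn
      rw [Units.val_mk0] at h4
      rw [← h4]
      push_cast
      rfl
  -- homogeneity from compatibility with `ζ`
  have hhom : ∀ b : F, (∀ x, ψ 1 b (ζ * x) = ζ * ψ 1 b x) → ∀ y x, ψ 1 b (y * x) = y * ψ 1 b x := by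
    intro b hb y x
    have hx0 : ψ 1 b 0 = 0 := by
      have := sx 1 b 0 0
      rw [add_zero] at this
      exact left_eq_add.mp this
    rcases hpow y with rfl | ⟨n, rfl⟩
    · rw [zero_mul, zero_mul, hx0]
    · induction n with
      | zero => rw [pow_zero, one_mul, one_mul]
      | succ n ih =>
        rw [pow_succ', mul_assoc, hb, ih, mul_assoc]
  have h3 : ∀ y x, ψ 1 ζ (y * x) = y * ψ 1 ζ x := hhom ζ (h1 ζ)
  have h4 : ∀ c y x, ψ 1 c (y * x) = y * ψ 1 c x := by
    intro c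
    apply hhom
    intro x
    have e1 := h2 ζ c x
    rw [h3] at e1
    linear_combination -e1 + (c * ψ 1 ζ x - (ζ : F) * ψ 1 c x) * h0
  have h5 : ∀ c x, ψ 1 c x = x * ψ 1 c 1 := by
    intro c x
    have := h4 c x 1
    rwa [mul_one] at this
  have h6 : ∀ (k : Fˣ) (b x : F), ψ (θ k) (θ k * b) x = (k : F) ^ 2 * x * ψ 1 b 1 := by
    intro k b x
    have e1 := s4 k 1 b (k * x)
    rw [mul_one, inv_mul_cancel_left₀ k.ne_zero, h5] at e1
    rw [e1]
    ring
  have h7 : ∀ a b x : F, a ≠ 0 → ψ a b x = θ a * x * ψ 1 (b / a) 1 := by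
    intro a b x ha
    obtain ⟨l, hl⟩ := (SzRel.ofGood H).theta_surj a
    have hl : θ l = a := hl
    have hl0 : l ≠ 0 := by
      rintro rfl
      rw [map_zero] at hl
      exact ha hl.symm
    have e1 := h6 (Units.mk0 l hl0) (b / a) x
    rw [Units.val_mk0, hl, mul_div_cancel₀ _ ha] at e1
    rw [e1, ← H.sq, hl]
  have h8 : ∀ x, ψ 1 x 1 = 0 := by
    refine hua h0 θ (fun x => ψ 1 x 1) (fun x y => hb1 1 x y 1) (s3 1 1) ?_
    intro x hx
    show ψ 1 x 1 = θ x * ψ 1 (1 / x) 1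
    rw [s2, h7 x 1 1 hx, mul_one]
  by_cases ha : a = 0
  · rw [ha, hz]
  · rw [h7 a b x ha, h8, mul_zero]

end Cfsg.Agent.H572.SzMod
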