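import Mathlib
import Cfsg.Agent.H572.SzModC
import Cfsg.Agent.H572.SzModD

/-!
# Martineau's theorem for the Suzuki groups, part E: the operators `u(0,a) - 1`
-/

set_option autoImplicit false

namespace Cfsg.Agent.H572.SzMod

open scoped Matrix
open Cfsg.Agent.LieRecognition.SzMatrix
open Cfsg.Agent.ThreePrime

variable {F : Type*} [Field F] {θ : F →+* F} {e : ℕ}

/-- the element `u(0,a) - 1` of the group ring -/
noncomputable def rr (H : Good F θ e) (a : F) : Rg F e := gr (H.u 0 a) - 1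

theorem u_mul_zero (H : Good F θ e) (a b : F) : H.u 0 a * H.u 0 b = H.u 0 (a + b) := by
  rw [H.u_mul]
  simp

theorem rr_zero (H : Good F θ e) : rr H 0 = 0 := by
  rw [rr, H.u_zero, gr_one, sub_self]

theorem rr_comm (H : Good F θ e) (a b : F) : rr H a * rr H b = rr H b * rr H a := by
  have h1 : gr (H.u 0 a) * gr (H.u 0 b) = gr (H.u 0 b) * gr (H.u 0 a) := by
    rw [← gr_mul, ← gr_mul, u_mul_zero, u_mul_zero, add_comm]
  rw [rr, rr]
  simp only [sub_mul, mul_sub, mul_one, one_mul]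
  rw [h1]
  abel

theorem rr_add (H : Good F θ e) (a b : F) : rr H (a + b) = rr H a + rr H b + rr H a * rr H b := by
  have h1 : gr (H.u 0 a) * gr (H.u 0 b) = gr (H.u 0 (a + b)) := by
    rw [← gr_mul, u_mul_zero]
  rw [rr, rr, rr]
  simp only [sub_mul, mul_sub, mul_one, one_mul]
  rw [h1]
  abel

theorem rr_self (H : Good F θ e) (a : F) : rr H a * rr H a = -(rr H a + rr H a) := by
  have h1 : gr (H.u 0 a) * gr (H.u 0 a) = 1 := by
    rw [← gr_mul, u_mul_zero, H.add_self, H.u_zero, gr_one]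
  rw [rr]
  simp only [sub_mul, mul_sub, mul_one, one_mul]
  rw [h1]
  abel

theorem gr_u_rr (H : Good F θ e) (a b c : F) : gr (H.u a b) * rr H c = rr H c * gr (H.u a b) := by
  have h1 : gr (H.u a b) * gr (H.u 0 c) = gr (H.u 0 c) * gr (H.u a b) := by
    rw [← gr_mul, ← gr_mul, H.u_mul, H.u_mul, map_zero, mul_zero, zero_mul, add_zero, add_zero, zero_add,
      add_zero, add_comm b c]
  rw [rr, mul_sub, sub_mul, h1, mul_one, one_mul]

theorem gr_d_rr (H : Good F θ e) (k : Fˣ) (c : F) : gr (H.d k) * rr H c = rr H (θ k * c) * gr (H.d k) := by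
  have h1 : gr (H.d k) * gr (H.u 0 c) = gr (H.u 0 (θ k * c)) * gr (H.d k) := by
    rw [← gr_mul, ← gr_mul, H.d_mul_u, zero_mul, zero_mul, mul_comm c]
  rw [rr, rr, mul_sub, sub_mul, h1, mul_one, one_mul]

section module

variable {A : Type*} [AddCommGroup A] [Module (Rg F e) A]

theorem rr_smul (H : Good F θ e) (a : F) (v : A) : rr H a • v = gr (H.u 0 a) • v - v := by
  rw [rr, sub_smul, one_smul]

theorem rr_comm_smul (H : Good F θ e) (a b : F) (v : A) : rr H a • rr H b • v = rr H b • rr H a • v := by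
  rw [← mul_smul, ← mul_smul, rr_comm]

theorem rr_self_smul (H : Good F θ e) (a : F) (v : A) : rr H a • rr H a • v = -(rr H a • v + rr H a • v) := by
  rw [← mul_smul, rr_self, neg_smul, add_smul]

theorem rr_self_smul' (H : Good F θ e) (h2 : E2 A) (a : F) (v : A) : rr H a • rr H a • v = 0 := by
  rw [rr_self_smul, h2, neg_zero]

theorem rr_add_smul (H : Good F θ e) (a b : F) (v : A) :
    rr H (a + b) • v = rr H a • v + rr H b • v + rr H a • rr H b • v := by
  rw [rr_add, add_smul, add_smul, mul_smul]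

theorem gr_u_rr_smul (H : Good F θ e) (a b c : F) (v : A) :
    gr (H.u a b) • rr H c • v = rr H c • gr (H.u a b) • v := by
  rw [← mul_smul, gr_u_rr, mul_smul]

theorem gr_d_rr_smul (H : Good F θ e) (k : Fˣ) (c : F) (v : A) :
    gr (H.d k) • rr H c • v = rr H (θ k * c) • gr (H.d k) • v := by
  rw [← mul_smul, gr_d_rr, mul_smul]

/-- the conjugated relation for elements of order 5 -/
theorem F5_conj (H : Good F θ e) (h5 : F5 H A) (g : ↥(Cfsg.Lie.Sz F e)) (v : A) :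
    v + gr (g * yy H * g⁻¹) • v + gr ((g * yy H * g⁻¹) ^ 2) • v + gr ((g * yy H * g⁻¹) ^ 3) • v +
      gr ((g * yy H * g⁻¹) ^ 4) • v = 0 := by
  have h1 := congrArg (fun w => gr g • w) (h5 (gr g⁻¹ • v))
  simp only [smul_add, smul_zero] at h1
  rw [← gr_smul, mul_inv_cancel, one_gr_smul, ← gr_smul, ← gr_smul, ← gr_smul, ← gr_smul, ← gr_smul, ← gr_smul,
    ← gr_smul, ← gr_smul] at h1
  rw [conj_pow, conj_pow, conj_pow]
  exact h1

/-- fixed vectors of an involution are images of `s - 1` -/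
theorem ker_rr (H : Good F θ e) [Finite F] (h2 : E2 A) (h5 : F5 H A) {a : F} (ha : a ≠ 0) {v : A}
    (hv : rr H a • v = 0) : ∃ v', v = rr H a • v' := by
  obtain ⟨k0, hk0⟩ := (SzRel.ofGood H).theta_surj a
  have hk0 : θ k0 = a := hk0
  have hk1 : k0 ≠ 0 := by
    rintro rfl
    rw [map_zero] at hk0
    exact ha hk0.symm
  set k : Fˣ := Units.mk0 k0 hk1 with hk
  -- `y` is inverted by `u(0,a)`
  set y : ↥(Cfsg.Lie.Sz F e) := H.d k * yy H * (H.d k)⁻¹ with hy
  have hs1 : H.u 0 a = H.d k * H.u 0 1 * (H.d k)⁻¹ := by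
    rw [H.d_mul_u, mul_inv_cancel_right, zero_mul, zero_mul, one_mul, hk, Units.val_mk0, hk0]
  have hss : H.u 0 a * H.u 0 a = 1 := by rw [u_mul_zero, H.add_self, H.u_zero]
  have h11 : H.u 0 1 * H.u 0 1 = 1 := by rw [u_mul_zero, H.add_self, H.u_zero]
  have hyinv : H.u 0 a * y * H.u 0 a = y⁻¹ := by
    have h3 : H.u 0 1 * yy H * H.u 0 1 = (yy H)⁻¹ := by
      rw [yy, mul_inv_rev, H.w_inv, inv_eq_of_mul_eq_one_right h11, mul_assoc, mul_assoc, h11, mul_one]
    rw [hs1, hy]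
    calc H.d k * H.u 0 1 * (H.d k)⁻¹ * (H.d k * yy H * (H.d k)⁻¹) * (H.d k * H.u 0 1 * (H.d k)⁻¹)
        = H.d k * (H.u 0 1 * yy H * H.u 0 1) * (H.d k)⁻¹ := by group
      _ = _ := by rw [h3]; group
  have hn : ∀ n : ℕ, H.u 0 a * y ^ n = (y⁻¹) ^ n * H.u 0 a := by
    intro n
    have h3 : (H.u 0 a * y * (H.u 0 a)⁻¹) ^ n = H.u 0 a * y ^ n * (H.u 0 a)⁻¹ := conj_pow
    rw [inv_eq_of_mul_eq_one_right hss, hyinv] at h3
    rw [h3, mul_assoc, hss, mul_one]
  have hv' : gr (H.u 0 a) • v = v := by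
    rw [rr_smul] at hv
    exact sub_eq_zero.mp hv
  -- apply the relation twice to see that `y ^ 5` acts trivially
  have hrel := F5_conj H h5 (H.d k)
  rw [← hy] at hrel
  have h5y : ∀ v : A, gr (y ^ 5) • v = v := by
    intro v
    have e1 := hrel v
    have e2 := hrel (gr y • v)
    rw [← gr_smul, ← gr_smul, ← gr_smul, ← gr_smul, ← pow_two, ← pow_succ, ← pow_succ, ← pow_succ] at e2
    have e3 : gr (y ^ 5) • v - v = 0 := by
      have : gr (y ^ (4 + 1)) • v - v = (gr y • v + gr (y ^ 2) • v + gr (y ^ (2 + 1)) • v + gr (y ^ (3 + 1)) • v +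
        gr (y ^ (4 + 1)) • v) - (v + gr y • v + gr (y ^ 2) • v + gr (y ^ 3) • v + gr (y ^ 4) • v) := by
        abel
      rw [this, e1, e2, sub_zero]
    exact sub_eq_zero.mp e3
  have hi1 : ∀ v : A, gr (y⁻¹) • v = gr (y ^ 4) • v := by
    intro v
    have h3 := h5y (gr y⁻¹ • v)
    rw [← gr_smul] at h3
    have h4 : y ^ 5 * y⁻¹ = y ^ 4 := by group
    rw [h4] at h3
    exact h3.symm
  have hi2 : ∀ v : A, gr ((y⁻¹) ^ 2) • v = gr (y ^ 3) • v := by
    intro v
    have h3 := h5y (gr ((y⁻¹) ^ 2) • v)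
    rw [← gr_smul] at h3
    have h4 : y ^ 5 * (y⁻¹) ^ 2 = y ^ 3 := by group
    rw [h4] at h3
    exact h3.symm
  refine ⟨gr y • v + gr (y ^ 2) • v, ?_⟩
  rw [rr_smul, smul_add, ← gr_smul, ← gr_smul, hn 2]
  have h4 := hn 1
  rw [pow_one, pow_one] at h4
  rw [h4, gr_smul, gr_smul, hv', hi1, hi2]
  have e1 := hrel v
  have hneg : ∀ w : A, -w = w := fun w => neg_eq_of_add_eq_zero_left (h2 w)
  rw [← hneg v]
  have e4 : gr (y ^ 4) • v + gr (y ^ 3) • v - (gr y • v + gr (y ^ 2) • v) =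
      (v + gr y • v + gr (y ^ 2) • v + gr (y ^ 3) • v + gr (y ^ 4) • v) - v - (gr y • v + gr y • v) -
        (gr (y ^ 2) • v + gr (y ^ 2) • v) := by abel
  rw [hneg v, e4, e1, h2, h2, sub_zero, sub_zero, zero_sub, hneg]

end module

end Cfsg.Agent.H572.SzMod
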