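import Mathlib
import Cfsg.Agent.H572.SzModE

/-!
# Martineau's theorem for the Suzuki groups, part F: `(u(0,a) - 1)(u(0,b) - 1) = 0` on modules of exponent two
-/

set_option autoImplicit false

namespace Cfsg.Agent.H572.SzMod

open scoped Matrix
open Cfsg.Agent.LieRecognition.SzMatrix
open Cfsg.Agent.ThreePrime

variable {F : Type*} [Field F] {θ : F →+* F} {e : ℕ}

/-- a module with natural submodule `j` and natural quotient `π` containing all the information on the products
`(u(0,a) - 1)(u(0,b) - 1)` -/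
structure Ext (H : Good F θ e) (A : Type*) [AddCommGroup A] [Module (Rg F e) A] where
  j : (Fin 4 → F) →+ A
  j_inj : Function.Injective j
  j_act : ∀ (g : ↥(Cfsg.Lie.Sz F e)) (z : Fin 4 → F), j (mv g z) = gr g • j z
  π : A →+ (Fin 4 → F)
  π_surj : Function.Surjective π
  π_act : ∀ (g : ↥(Cfsg.Lie.Sz F e)) (v : A), π (gr g • v) = mv g (π v)
  πj : ∀ z, π (j z) = 0
  h1 : ∀ (a b : F) (v : A), ∃ z, rr H a • rr H b • v = j z
  h2 : ∀ (a b : F) (v : A), π v = 0 → rr H a • rr H b • v = 0

variable {A : Type*} [AddCommGroup A] [Module (Rg F e) A] {H : Good F θ e} (E : Ext H A)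

include E

theorem Ext.j_rr (b : F) (z : Fin 4 → F) : rr H b • E.j z = E.j (rv θ b z) := by
  rw [rr_smul, ← E.j_act, mv_u_zero, map_add, add_sub_cancel_left]

theorem Ext.π_rr (b : F) (v : A) : E.π (rr H b • v) = rv θ b (E.π v) := by
  rw [rr_smul, map_sub, E.π_act, mv_u_zero, add_sub_cancel_left]

theorem Ext.j_two (z : Fin 4 → F) : E.j z + E.j z = 0 := by
  rw [← map_add]
  have : z + z = 0 := by
    ext i
    exact H.add_self _
  rw [this, map_zero]

theorem Ext.exists_phi : ∃ φ : F → F → ((Fin 4 → F) →+ (Fin 4 → F)),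
    ∀ (a b : F) (v : A), E.j (φ a b (E.π v)) = rr H a • rr H b • v := by
  have key : ∀ a b : F, ∃ φ : (Fin 4 → F) →+ (Fin 4 → F), ∀ v : A, E.j (φ (E.π v)) = rr H a • rr H b • v := by
    intro a b
    choose s hs using E.π_surj
    choose t ht using fun z => E.h1 a b (s z)
    have h : ∀ v : A, E.j (t (E.π v)) = rr H a • rr H b • v := by
      intro v
      have h1 := E.h2 a b (v - s (E.π v)) (by rw [map_sub, hs, sub_self])
      rw [smul_sub, smul_sub, sub_eq_zero] at h1
      rw [h1, ht]
    refine ⟨AddMonoidHom.mk' t ?_, h⟩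
    intro y z
    apply E.j_inj
    have h1 := h (s y + s z)
    rw [map_add, hs, hs, smul_add, smul_add, ht, ht] at h1
    rw [h1, map_add]
  choose φ hφ using key
  exact ⟨φ, hφ⟩

theorem Ext.exists_shape : ∃ (ψ : F → F → (F →+ F)) (c : F → F → F), ∀ (a b : F) (v : A),
    rr H a • rr H b • v = E.j ![ψ a b (E.π v 3) + c a b * E.π v 2, c a b * E.π v 3, 0, 0] := by
  obtain ⟨φ, hφ⟩ := E.exists_phi
  have key : ∀ a b : F, ∃ (ψ : F →+ F) (c : F), ∀ z, φ a b z = ![ψ (z 3) + c * z 2, c * z 3, 0, 0] := by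
    intro a b
    by_cases ha : a = 0
    · refine ⟨0, 0, ?_⟩
      intro z
      obtain ⟨v, rfl⟩ := E.π_surj z
      apply E.j_inj
      rw [hφ, ha, rr_zero, zero_smul]
      have : (![(0 : F →+ F) (E.π v 3) + 0 * E.π v 2, 0 * E.π v 3, 0, 0] : Fin 4 → F) = 0 := by
        ext i
        fin_cases i <;> simp
      rw [this, map_zero]
    · have h0 : ∀ v : A, rr H a • rr H a • rr H b • v = 0 := by
        intro v
        rw [rr_self_smul]
        obtain ⟨z, hz⟩ := E.h1 a b v
        rw [hz, E.j_two, neg_zero]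
      refine shape H (φ a b) ?_ ?_ ?_
      · intro c z
        obtain ⟨v, rfl⟩ := E.π_surj z
        apply E.j_inj
        rw [← E.π_act, hφ, E.j_act, hφ, gr_u_rr_smul, gr_u_rr_smul]
      · intro x y
        obtain ⟨v, hv⟩ := E.π_surj ![0, 0, (x - θ a * (y / a)) / a, y / a]
        have h1 : E.π (rr H a • v) = ![x, y, 0, 0] := by
          rw [E.π_rr, hv]
          ext i
          fin_cases i
          · simp [rv]
            field_simp
            ring
          · simp [rv]
            field_simp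
          · simp [rv]
          · simp [rv]
        rw [← h1]
        apply E.j_inj
        rw [hφ, map_zero]
        have h2 : rr H a • rr H b • rr H a • v = rr H a • rr H a • rr H b • v := by
          rw [rr_comm_smul H b a]
        rw [h2, h0]
      · intro z
        obtain ⟨v, rfl⟩ := E.π_surj z
        have h1 := h0 v
        rw [← hφ a b v, E.j_rr] at h1
        have h2 : rv θ a (φ a b (E.π v)) = 0 := by
          apply E.j_inj
          rw [h1, map_zero]
        exact (rv_eq_zero ha).1 h2
  choose ψ c hψ using key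
  refine ⟨ψ, c, fun a b v => ?_⟩
  rw [← hφ, hψ]

/-- the key step -/
theorem Ext.zero [Finite F] (h2 : E2 A)
    (h3 : ∀ (a b : F) (v : A), a ≠ 0 → ∃ v' z, rr H b • v = rr H a • v' + E.j z) (a b : F) (v : A) :
    rr H a • rr H b • v = 0 := by
  obtain ⟨ψ, c, hs⟩ := E.exists_shape
  have hv : ∀ x : F, ∃ v : A, E.π v = ![0, 0, 0, x] := fun x => E.π_surj _
  have hs' : ∀ (a b x : F) (v : A), E.π v = ![0, 0, 0, x] →
      rr H a • rr H b • v = E.j ![ψ a b x, c a b * x, 0, 0] := by
    intro a b x v hx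
    rw [hs, hx]
    congr 1
    ext i
    fin_cases i <;> simp
  -- addition
  have hadd : ∀ a a' b x : F, ![ψ (a + a') b x, c (a + a') b * x, 0, 0] =
      ![ψ a b x, c a b * x, 0, 0] + ![ψ a' b x, c a' b * x, 0, 0] := by
    intro a a' b x
    obtain ⟨v, hx⟩ := hv x
    apply E.j_inj
    rw [map_add, ← hs' _ _ _ v hx, ← hs' _ _ _ v hx, ← hs' _ _ _ v hx, rr_add_smul, hs' a' b x v hx, E.j_rr]
    have : rv θ a ![ψ a' b x, c a' b * x, 0, 0] = 0 := by
      ext i
      fin_cases i <;> simp [rv]
    rw [this, map_zero, add_zero]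
  have hsymm : ∀ a b x : F, (![ψ a b x, c a b * x, 0, 0] : Fin 4 → F) = ![ψ b a x, c b a * x, 0, 0] := by
    intro a b x
    obtain ⟨v, hx⟩ := hv x
    apply E.j_inj
    rw [← hs' _ _ _ v hx, ← hs' _ _ _ v hx, rr_comm_smul]
  have hself : ∀ a x : F, (![ψ a a x, c a a * x, 0, 0] : Fin 4 → F) = 0 := by
    intro a x
    obtain ⟨v, hx⟩ := hv x
    apply E.j_inj
    rw [← hs' _ _ _ v hx, map_zero, rr_self_smul' H h2]
  have hd : ∀ (k : Fˣ) (a b x : F), (![ψ (θ k * a) (θ k * b) ((k : F)⁻¹ * x),
      c (θ k * a) (θ k * b) * ((k : F)⁻¹ * x), 0, 0] : Fin 4 → F) =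
      ![k * ψ a b x, θ k * (k : F)⁻¹ * (c a b * x), 0, 0] := by
    intro k a b x
    obtain ⟨v, hx⟩ := hv x
    have h1 : E.π (gr (H.d k) • v) = ![0, 0, 0, (k : F)⁻¹ * x] := by
      rw [E.π_act, hx, mv_d]
      ext i
      fin_cases i <;> simp
    have h4 : (![k * ψ a b x, θ k * (k : F)⁻¹ * (c a b * x), 0, 0] : Fin 4 → F) =
        mv (H.d k) ![ψ a b x, c a b * x, 0, 0] := by
      rw [mv_d]
      ext i
      fin_cases i <;> simp
    apply E.j_inj
    rw [h4, E.j_act, ← hs' _ _ _ v hx, ← hs' _ _ _ _ h1, gr_d_rr_smul, gr_d_rr_smul]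
  -- `c = 0`
  have hc : ∀ a b : F, c a b = 0 := by
    refine c_zero H.two c ?_ ?_ ?_ ?_
    · intro a a' b
      have h := congrFun (hadd a a' b 1) 1
      simpa using h
    · intro a b
      have h := congrFun (hsymm a b 1) 1
      simpa using h
    · intro a
      have h := congrFun (hself a 1) 1
      simpa using h
    · intro l a b hl
      obtain ⟨k, hk⟩ := (SzRel.ofGood H).theta_surj l
      have hk : θ k = l := hk
      have hk0 : k ≠ 0 := by
        rintro rfl
        rw [map_zero] at hk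
        exact hl hk.symm
      have h := congrFun (hd (Units.mk0 k hk0) a b k) 1
      simp only [Matrix.cons_val_one, Matrix.cons_val_zero, Units.val_mk0, hk] at h
      rw [inv_mul_cancel₀ hk0, mul_one] at h
      rw [h]
      field_simp
  -- `ψ = 0`
  have hψ : ∀ a b x : F, ψ a b x = 0 := by
    refine psi_zero H (fun a b x => ψ a b x) ?_ ?_ ?_ ?_ ?_ ?_
    · intro a a' b x
      exact congrFun (hadd a a' b x) 0
    · intro a b x
      exact congrFun (hsymm a b x) 0
    · intro a x
      exact congrFun (hself a x) 0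
    · intro a b x y
      exact map_add _ _ _
    · intro k a b x
      exact congrFun (hd k a b x) 0
    · intro a b x ha hb
      obtain ⟨v, hx⟩ := hv x
      obtain ⟨v', ξ, h4⟩ := h3 a b v ha
      have e1 := congrArg (fun w => rr H a • w) h4
      have e2 := congrArg (fun w => rr H b • w) h4
      have e3 := congrArg E.π h4
      simp only [smul_add] at e1 e2
      rw [rr_self_smul' H h2, zero_add, hs' a b x v hx, E.j_rr] at e1
      rw [rr_self_smul' H h2, E.j_rr] at e2
      rw [map_add, E.π_rr, E.π_rr, E.πj, add_zero, hx] at e3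
      have e1' := E.j_inj e1
      have e2' : rr H b • rr H a • v' = E.j (rv θ b ξ) := by
        have h5 : rr H b • rr H a • v' = -(E.j (rv θ b ξ)) := eq_neg_of_add_eq_zero_left e2.symm
        rw [h5]
        exact neg_eq_of_add_eq_zero_left (h2 _)
      rw [rr_comm_smul, hs a b v', hc] at e2'
      have e2'' := E.j_inj e2'
      rw [hc] at e1'
      have f1 := congrFun e1' 0
      have f1' := congrFun e1' 1
      have f2 := congrFun e2'' 0
      have f2' := congrFun e2'' 1
      have f3 := congrFun e3 1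
      simp [rv] at f1 f1' f2 f2' f3
      have hξ3 : ξ 3 = 0 := f1'.resolve_left ha
      rw [hξ3, mul_zero, add_zero] at f1 f2
      have f4 : E.π v' 3 = b / a * x := by
        field_simp
        rw [mul_comm, ← f3, mul_comm]
      rw [f4] at f2
      rw [f2, f1]
      field_simp
  rw [hs, hc, hψ]
  have : (![0 + 0 * E.π v 2, 0 * E.π v 3, 0, 0] : Fin 4 → F) = 0 := by
    ext i
    fin_cases i <;> simp
  rw [this, map_zero]

end Cfsg.Agent.H572.SzMod
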