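import Mathlib
import Cfsg.Agent.H572.SzModF

/-!
# Martineau's theorem for the Suzuki groups, part G: modules of exponent two
-/

set_option autoImplicit false

universe u v

namespace Cfsg.Agent.H572.SzMod

open scoped Matrix
open Cfsg.Agent.LieRecognition.SzMatrix
open Cfsg.Agent.ThreePrime

variable {F : Type u} [Field F] {θ : F →+* F} {e : ℕ}

section inherit

variable {A : Type v} [AddCommGroup A] [Module (Rg F e) A]

theorem E2.sub (h : E2 A) (X : Submodule (Rg F e) A) : E2 X := fun v => Subtype.ext (h v)

theorem E2.quot (h : E2 A) (X : Submodule (Rg F e) A) : E2 (A ⧸ X) := by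
  intro v
  obtain ⟨v, rfl⟩ := X.mkQ_surjective v
  rw [← map_add, h, map_zero]

theorem F5.sub {H : Good F θ e} (h : F5 H A) (X : Submodule (Rg F e) A) : F5 H X := fun v => Subtype.ext (h v)

theorem F5.quot {H : Good F θ e} (h : F5 H A) (X : Submodule (Rg F e) A) : F5 H (A ⧸ X) := by
  intro v
  obtain ⟨v, rfl⟩ := X.mkQ_surjective v
  have := congrArg X.mkQ (h v)
  simpa only [map_add, map_smul, map_zero] using this

theorem finite_quot [Finite A] (X : Submodule (Rg F e) A) : Finite (A ⧸ X) :=
  Finite.of_surjective _ X.mkQ_surjective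

attribute [local instance] finite_quot

theorem card_sub_lt [Finite A] {Y : Submodule (Rg F e) A} (hY : Y ≠ ⊤) : Nat.card Y < Nat.card A := by
  have h1 := Submodule.card_eq_card_quotient_mul_card Y
  have h2 : 1 < Nat.card (A ⧸ Y) := by
    rw [Finite.one_lt_card_iff_nontrivial]
    exact Submodule.Quotient.nontrivial_iff.2 hY
  have h3 : 0 < Nat.card Y := Nat.card_pos
  nlinarith

theorem card_quot_lt [Finite A] {X : Submodule (Rg F e) A} (hX : X ≠ ⊥) : Nat.card (A ⧸ X) < Nat.card A := by
  have h1 := Submodule.card_eq_card_quotient_mul_card X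
  have h2 : 1 < Nat.card X := by
    rw [Finite.one_lt_card_iff_nontrivial]
    exact (Submodule.nontrivial_iff_ne_bot).2 hX
  have h3 : 0 < Nat.card (A ⧸ X) := Nat.card_pos
  nlinarith

theorem finite_submodule [Finite A] : Finite (Submodule (Rg F e) A) :=
  Finite.of_injective (fun S : Submodule (Rg F e) A => (S : Set A)) SetLike.coe_injective

theorem exists_atom [Finite A] [Nontrivial A] : ∃ X : Submodule (Rg F e) A, IsAtom X := by
  have := finite_submodule (F := F) (e := e) (A := A)
  exact IsAtomic.exists_atom _

theorem exists_coatom [Finite A] {X : Submodule (Rg F e) A} (hX : X ≠ ⊤) : ∃ Y : Submodule (Rg F e) A,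
    IsCoatom Y ∧ X ≤ Y := by
  have := finite_submodule (F := F) (e := e) (A := A)
  exact (eq_top_or_exists_le_coatom X).resolve_left hX

end inherit

attribute [local instance] finite_quot

theorem IsNat.rr_rr (H : Good F θ e) {A : Type v} [AddCommGroup A] [Module (Rg F e) A] (h : IsNat F e A)
    (a b : F) (v : A) : rr H a • rr H b • v = 0 := by
  obtain ⟨ι, hι⟩ := h
  have h1 : ∀ (b : F) (z : Fin 4 → F), rr H b • ι z = ι (rv θ b z) := by
    intro b z
    rw [rr_smul, ← hι, mv_u_zero, map_add, add_sub_cancel_left]
  obtain ⟨z, rfl⟩ := ι.surjective v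
  rw [h1, h1, rv_rv, map_zero]

/-- **in a module of exponent two the products `(u(0,a) - 1)(u(0,b) - 1)` vanish** -/
theorem rr_rr_zero_aux (H : Good F θ e) [Finite F] (n : ℕ) :
    ∀ (A : Type v) [AddCommGroup A] [Module (Rg F e) A] [Finite A], Nat.card A ≤ n → E2 A → F5 H A →
      ∀ (a b : F) (v : A), rr H a • rr H b • v = 0 := by
  induction n with
  | zero =>
    intro A _ _ _ hA _ _ a b v
    have := Nat.card_pos (α := A)
    omega
  | succ n ih =>
    intro A _ _ _ hA h2 h5 a b v
    rcases subsingleton_or_nontrivial A with hs | hs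
    · exact Subsingleton.elim _ _
    obtain ⟨X, hX⟩ := exists_atom (F := F) (e := e) (A := A)
    have hXs : IsSimpleModule (Rg F e) X := isSimpleModule_iff_isAtom.2 hX
    have hXn : IsNat F e X := simple_isNat H (h2.sub X) (h5.sub X)
    by_cases hXt : X = ⊤
    · have h3 := IsNat.rr_rr H hXn a b ⟨v, by rw [hXt]; trivial⟩
      exact congrArg Subtype.val h3
    · obtain ⟨Y, hY, hXY⟩ := exists_coatom hXt
      have hYs : IsSimpleModule (Rg F e) (A ⧸ Y) := isSimpleModule_iff_isCoatom.2 hY
      have hYn : IsNat F e (A ⧸ Y) := simple_isNat H (h2.quot Y) (h5.quot Y)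
      have ihQ := ih (A ⧸ X) (by have := card_quot_lt hX.1; omega) (h2.quot X) (h5.quot X)
      have ihY := ih Y (by have := card_sub_lt hY.1; omega) (h2.sub Y) (h5.sub Y)
      obtain ⟨ι, hι⟩ := hXn
      obtain ⟨κ, hκ⟩ := hYn
      have hj : ∀ x ∈ X, ∃ z, x = (ι z : A) := by
        intro x hx
        refine ⟨ι.symm ⟨x, hx⟩, ?_⟩
        rw [AddEquiv.apply_symm_apply]
      let E : Ext H A :=
        { j := (X.subtype.toAddMonoidHom).comp ι.toAddMonoidHom
          j_inj := X.subtype_injective.comp ι.injective
          j_act := fun g z => congrArg Subtype.val (hι g z)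
          π := κ.symm.toAddMonoidHom.comp Y.mkQ.toAddMonoidHom
          π_surj := κ.symm.surjective.comp Y.mkQ_surjective
          π_act := by
            intro g w
            apply κ.injective
            show κ (κ.symm (Y.mkQ (gr g • w))) = κ (mv g (κ.symm (Y.mkQ w)))
            rw [AddEquiv.apply_symm_apply, hκ, AddEquiv.apply_symm_apply, map_smul]
          πj := by
            intro z
            show κ.symm (Y.mkQ (ι z : A)) = 0
            have : Y.mkQ (ι z : A) = 0 := by
              rw [Submodule.mkQ_apply, Submodule.Quotient.mk_eq_zero]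
              exact hXY (ι z).2
            rw [this, map_zero]
          h1 := by
            intro a b w
            have h3 := ihQ a b (X.mkQ w)
            rw [← map_smul, ← map_smul, Submodule.mkQ_apply, Submodule.Quotient.mk_eq_zero] at h3
            exact hj _ h3
          h2 := by
            intro a b w hw
            have h3 : Y.mkQ w = 0 := by
              apply κ.symm.injective
              rw [map_zero]
              exact hw
            rw [Submodule.mkQ_apply, Submodule.Quotient.mk_eq_zero] at h3
            exact congrArg Subtype.val (ihY a b ⟨w, h3⟩) }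
      refine E.zero h2 ?_ a b v
      intro a b w ha
      have h3 := ihQ a b (X.mkQ w)
      obtain ⟨w', hw'⟩ := ker_rr H (h2.quot X) (h5.quot X) ha h3
      obtain ⟨w', rfl⟩ := X.mkQ_surjective w'
      rw [← map_smul, ← map_smul, ← sub_eq_zero, ← map_sub, Submodule.mkQ_apply,
        Submodule.Quotient.mk_eq_zero] at hw'
      obtain ⟨z, hz⟩ := hj _ hw'
      refine ⟨w', z, ?_⟩
      show rr H b • w = rr H a • w' + (ι z : A)
      rw [← hz]
      abel

theorem rr_rr_zero (H : Good F θ e) [Finite F] {A : Type v} [AddCommGroup A] [Module (Rg F e) A] [Finite A]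
    (h2 : E2 A) (h5 : F5 H A) (a b : F) (v : A) : rr H a • rr H b • v = 0 :=
  rr_rr_zero_aux H _ A le_rfl h2 h5 a b v

end Cfsg.Agent.H572.SzMod
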