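import Mathlib
import Cfsg.Agent.H572.SzModG

/-!
# Martineau's theorem for the Suzuki groups, part H: equivariant bi-additive maps vanish
-/

set_option autoImplicit false

universe u v

namespace Cfsg.Agent.H572.SzMod

open scoped Matrix
open Cfsg.Agent.LieRecognition.SzMatrix
open Cfsg.Agent.ThreePrime

variable {F : Type u} [Field F] {θ : F →+* F} {e : ℕ}

section natural

/-- a vector fixed by the Sylow 2-subgroup -/
theorem fixed_vec (H : Good F θ e) {z : Fin 4 → F} (h1 : mv (H.u 0 1) z = z) (h2 : mv (H.u 1 0) z = z) :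
    z = ![z 0, 0, 0, 0] := by
  rw [mv_u_zero, add_eq_left, rv_eq_zero one_ne_zero] at h1
  have h3 : z 1 = 0 := by
    have := congrFun h2 0
    rw [mv_u] at this
    simpa [h1.1, h1.2] using this
  ext i
  fin_cases i
  · rfl
  · exact h3
  · exact h1.1
  · exact h1.2

variable (H : Good F θ e) {β : (Fin 4 → F) →+ (Fin 4 → F) →+ (Fin 4 → F)}

theorem nat_add0 (x y : F) : (![x + y, 0, 0, 0] : Fin 4 → F) = ![x, 0, 0, 0] + ![y, 0, 0, 0] := by
  ext i
  fin_cases i <;> simp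

theorem mv_u_e0 (a b x : F) : mv (H.u a b) ![x, 0, 0, 0] = ![x, 0, 0, 0] := by
  rw [mv_u]
  ext i
  fin_cases i <;> simp

theorem mv_u_e1 (a b x : F) :
    mv (H.u a b) ![0, x, 0, 0] = ![0, x, 0, 0] + ![a * x, 0, 0, 0] := by
  rw [mv_u]
  ext i
  fin_cases i <;> simp

theorem rv_e2 (b x : F) : rv θ b ![0, 0, x, 0] = ![b * x, 0, 0, 0] := by
  ext i
  fin_cases i <;> simp [rv]

theorem rv_e3 (b x : F) : rv θ b ![0, 0, 0, x] = ![θ b * x, 0, 0, 0] + ![0, b * x, 0, 0] := by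
  ext i
  fin_cases i <;> simp [rv]

/-- the key to linearity -/
theorem lin_aux {f : F → F} {z : Fin 4 → F} (h : ∀ a : F, rv θ a z = ![f a, 0, 0, 0]) (a : F) : f a = a * f 1 := by
  have h1 := congrFun (h 1) 1
  have h2 := congrFun (h 1) 0
  have h3 := congrFun (h a) 0
  simp [rv] at h1 h2 h3
  rw [h1, mul_zero, add_zero] at h3
  rw [h1, add_zero] at h2
  rw [← h3, ← h2]

variable (hβ : ∀ (g : ↥(Cfsg.Lie.Sz F e)) (x y : Fin 4 → F), β (mv g x) (mv g y) = mv g (β x y))

include H hβ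

theorem nat_e0_e0 (hθ : ∃ x : F, θ x ≠ x) (x y : F) : β ![x, 0, 0, 0] ![y, 0, 0, 0] = 0 := by
  -- values
  have hval : ∀ x y : F, β ![x, 0, 0, 0] ![y, 0, 0, 0] = ![β ![x, 0, 0, 0] ![y, 0, 0, 0] 0, 0, 0, 0] := by
    intro x y
    apply fixed_vec H
    · rw [← hβ, mv_u_e0, mv_u_e0]
    · rw [← hβ, mv_u_e0, mv_u_e0]
  have hl : ∀ a x y : F, β ![x, 0, 0, 0] ![a * y, 0, 0, 0] 0 = a * β ![x, 0, 0, 0] ![y, 0, 0, 0] 0 := by
    intro a x y
    have h1 := lin_aux (θ := θ) (f := fun a => β ![x, 0, 0, 0] ![a * y, 0, 0, 0] 0)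
      (z := β ![x, 0, 0, 0] ![0, 0, y, 0]) (by
        intro a
        have h2 := hβ (H.u 0 a) ![x, 0, 0, 0] ![0, 0, y, 0]
        rw [mv_u_e0, mv_u_zero, mv_u_zero, map_add, add_right_inj, rv_e2] at h2
        rw [← h2]
        exact hval _ _) a
    simpa using h1
  have hr : ∀ a x y : F, β ![a * x, 0, 0, 0] ![y, 0, 0, 0] 0 = a * β ![x, 0, 0, 0] ![y, 0, 0, 0] 0 := by
    intro a x y
    have h1 := lin_aux (θ := θ) (f := fun a => β ![a * x, 0, 0, 0] ![y, 0, 0, 0] 0)
      (z := β ![0, 0, x, 0] ![y, 0, 0, 0]) (by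
        intro a
        have h2 := hβ (H.u 0 a) ![0, 0, x, 0] ![y, 0, 0, 0]
        rw [mv_u_e0, mv_u_zero, mv_u_zero, map_add, AddMonoidHom.add_apply, add_right_inj, rv_e2] at h2
        rw [← h2]
        exact hval _ _) a
    simpa using h1
  obtain ⟨k, hk⟩ := hθ
  have hk0 : k ≠ 0 := by
    rintro rfl
    exact hk (map_zero θ)
  have hk1 : k ≠ 1 := by
    rintro rfl
    exact hk (map_one θ)
  have h11 : β ![1, 0, 0, 0] ![1, 0, 0, 0] 0 = 0 := by
    have h1 := hβ (H.d (Units.mk0 k hk0)) ![1, 0, 0, 0] ![1, 0, 0, 0]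
    have h2 : mv (H.d (Units.mk0 k hk0)) ![1, 0, 0, 0] = ![k * 1, 0, 0, 0] := by
      rw [mv_d]
      ext i
      fin_cases i <;> simp
    rw [h2, mv_d] at h1
    have h3 := congrFun h1 0
    rw [hl, hr] at h3
    simp only [Matrix.cons_val_zero, Units.val_mk0] at h3
    have h4 : k * (k - 1) * β ![1, 0, 0, 0] ![1, 0, 0, 0] 0 = 0 := by linear_combination h3
    rcases mul_eq_zero.mp h4 with h5 | h5
    · exfalso
      rcases mul_eq_zero.mp h5 with h6 | h6
      · exact hk0 h6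
      · exact hk1 (sub_eq_zero.mp h6)
    · exact h5
  rw [hval]
  have h1 := hl y x 1
  have h2 := hr x 1 1
  rw [mul_one] at h1 h2
  rw [h1, h2, h11, mul_zero, mul_zero]
  ext i
  fin_cases i <;> rfl

theorem nat_e0_e1 (hθ : ∃ x : F, θ x ≠ x) (x y : F) : β ![x, 0, 0, 0] ![0, y, 0, 0] = 0 := by
  have h00 := nat_e0_e0 H hβ hθ
  have hval : ∀ x y : F, β ![x, 0, 0, 0] ![0, y, 0, 0] = ![β ![x, 0, 0, 0] ![0, y, 0, 0] 0, 0, 0, 0] := by
    intro x y
    apply fixed_vec H
    · rw [← hβ, mv_u_e0, mv_u_e1, map_add, h00, add_zero]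
    · rw [← hβ, mv_u_e0, mv_u_e1, map_add, h00, add_zero]
  have hl : ∀ a x y : F, β ![x, 0, 0, 0] ![0, a * y, 0, 0] 0 = a * β ![x, 0, 0, 0] ![0, y, 0, 0] 0 := by
    intro a x y
    have h1 := lin_aux (θ := θ) (f := fun a => β ![x, 0, 0, 0] ![0, a * y, 0, 0] 0)
      (z := β ![x, 0, 0, 0] ![0, 0, 0, y]) (by
        intro a
        have h2 := hβ (H.u 0 a) ![x, 0, 0, 0] ![0, 0, 0, y]
        rw [mv_u_e0, mv_u_zero, mv_u_zero, map_add, add_right_inj, rv_e3, map_add, h00, zero_add] at h2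
        rw [← h2]
        exact hval _ _) a
    simpa using h1
  have hr : ∀ a x y : F, β ![a * x, 0, 0, 0] ![0, y, 0, 0] 0 = a * β ![x, 0, 0, 0] ![0, y, 0, 0] 0 := by
    intro a x y
    have h1 := lin_aux (θ := θ) (f := fun a => β ![a * x, 0, 0, 0] ![0, y, 0, 0] 0)
      (z := β ![0, 0, x, 0] ![0, y, 0, 0]) (by
        intro a
        have h2 := hβ (H.u 0 a) ![0, 0, x, 0] ![0, y, 0, 0]
        rw [mv_u_e1, zero_mul] at h2
        have h3 : (![0, 0, 0, 0] : Fin 4 → F) = 0 := by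
          ext i
          fin_cases i <;> rfl
        rw [h3, add_zero, mv_u_zero, mv_u_zero, map_add, AddMonoidHom.add_apply, add_right_inj, rv_e2] at h2
        rw [← h2]
        exact hval _ _) a
    simpa using h1
  obtain ⟨k, hk⟩ := hθ
  have hk0 : k ≠ 0 := by
    rintro rfl
    exact hk (map_zero θ)
  have h11 : β ![1, 0, 0, 0] ![0, 1, 0, 0] 0 = 0 := by
    have h1 := hβ (H.d (Units.mk0 k hk0)) ![1, 0, 0, 0] ![0, 1, 0, 0]
    have h2 : mv (H.d (Units.mk0 k hk0)) ![1, 0, 0, 0] = ![k * 1, 0, 0, 0] := by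
      rw [mv_d]
      ext i
      fin_cases i <;> simp
    have h2' : mv (H.d (Units.mk0 k hk0)) ![0, 1, 0, 0] = ![0, (θ k * k⁻¹) * 1, 0, 0] := by
      rw [mv_d]
      ext i
      fin_cases i <;> simp
    rw [h2, h2', mv_d] at h1
    have h3 := congrFun h1 0
    rw [hl, hr] at h3
    simp only [Matrix.cons_val_zero, Units.val_mk0] at h3
    have h4 : (θ k - k) * β ![1, 0, 0, 0] ![0, 1, 0, 0] 0 = 0 := by
      rw [← mul_assoc, inv_mul_cancel_right₀ hk0] at h3
      linear_combination h3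
    rcases mul_eq_zero.mp h4 with h5 | h5
    · exact absurd (sub_eq_zero.mp h5) hk
    · exact h5
  rw [hval]
  have h1 := hl y x 1
  have h2 := hr x 1 1
  rw [mul_one] at h1 h2
  rw [h1, h2, h11, mul_zero, mul_zero]
  ext i
  fin_cases i <;> rfl

theorem nat_e0 (hθ : ∃ x : F, θ x ≠ x) (x : F) (z : Fin 4 → F) :
    β ![x, 0, 0, 0] z 2 = 0 ∧ β ![x, 0, 0, 0] z 3 = 0 := by
  have h1 := hβ (H.u 0 1) ![x, 0, 0, 0] z
  have h2 : rv θ 1 z = ![z 2 + z 3, 0, 0, 0] + ![0, z 3, 0, 0] := by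
    ext i
    fin_cases i <;> simp [rv]
  rw [mv_u_e0, mv_u_zero, mv_u_zero, map_add, add_right_inj, h2, map_add, nat_e0_e0 H hβ hθ, nat_e0_e1 H hβ hθ,
    add_zero] at h1
  exact (rv_eq_zero one_ne_zero).1 h1.symm

end natural

section natural2

variable {β : (Fin 4 → F) →+ (Fin 4 → F) →+ (Fin 4 → F)}

theorem nat_zero (hβ : ∀ (g : ↥(Cfsg.Lie.Sz F e)) (x y : Fin 4 → F), β (mv g x) (mv g y) = mv g (β x y))
    (hθ : ∃ x : F, θ x ≠ x) (H : Good F θ e) (x y : Fin 4 → F) : β x y = 0 := by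
  have hβ' : ∀ (g : ↥(Cfsg.Lie.Sz F e)) (x y : Fin 4 → F), β.flip (mv g x) (mv g y) = mv g (β.flip x y) := by
    intro g x y
    exact hβ g y x
  have h3 : ∀ x y : F, β ![x, 0, 0, 0] ![0, 0, 0, y] = 0 := by
    intro x y
    have e1 := hβ H.w ![0, 0, 0, x] ![y, 0, 0, 0]
    have e2 := nat_e0 H hβ' hθ y ![0, 0, 0, x]
    have e3 := nat_e0 H hβ hθ x ![0, 0, 0, y]
    have e4 : β ![0, 0, 0, x] ![y, 0, 0, 0] 2 = 0 := e2.1
    have e5 : β ![0, 0, 0, x] ![y, 0, 0, 0] 3 = 0 := e2.2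
    rw [mv_w, mv_w, mv_w, e4, e5] at e1
    simp only [Matrix.cons_val_zero, Matrix.cons_val_one, Matrix.cons_val] at e1
    ext i
    fin_cases i
    · exact congrFun e1 0
    · exact congrFun e1 1
    · exact e3.1
    · exact e3.2
  have h2 : ∀ x y : F, β ![x, 0, 0, 0] ![0, 0, y, 0] = 0 := by
    intro x y
    have e1 := hβ (H.u 1 0) ![x, 0, 0, 0] ![0, 0, 0, y]
    rw [mv_u_e0, h3, mv_zero] at e1
    have e2 : mv (H.u 1 0) ![0, 0, 0, y] = ![y, 0, 0, 0] + ![0, y, 0, 0] + ![0, 0, y, 0] + ![0, 0, 0, y] := by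
      rw [mv_u]
      ext i
      fin_cases i <;> simp
    rw [e2, map_add, map_add, map_add, nat_e0_e0 H hβ hθ, nat_e0_e1 H hβ hθ, h3, add_zero, add_zero,
      zero_add] at e1
    exact e1
  have h0 : ∀ (x : F) (z : Fin 4 → F), β ![x, 0, 0, 0] z = 0 := by
    intro x z
    have h1 : z = ![z 0, 0, 0, 0] + ![0, z 1, 0, 0] + ![0, 0, z 2, 0] + ![0, 0, 0, z 3] := by
      ext i
      fin_cases i <;> simp
    rw [h1, map_add, map_add, map_add, nat_e0_e0 H hβ hθ, nat_e0_e1 H hβ hθ, h2, h3]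
    simp
  have hK : β.ker = ⊤ := by
    refine inv_subgroup H β.ker ?_ (z := ![1, 0, 0, 0]) ?_ ?_
    · intro g z hz
      rw [AddMonoidHom.mem_ker] at hz ⊢
      refine AddMonoidHom.ext fun w => ?_
      have h4 : w = mv g (mv g⁻¹ w) := by rw [← mv_mul, mul_inv_cancel, mv_one]
      rw [h4, hβ, hz]
      exact mv_zero _
    · rw [AddMonoidHom.mem_ker]
      refine AddMonoidHom.ext fun w => ?_
      exact h0 1 w
    · intro h
      exact one_ne_zero (congrFun h 0)
  have hx : x ∈ β.ker := by rw [hK]; trivial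
  rw [AddMonoidHom.mem_ker] at hx
  rw [hx]
  rfl

end natural2

section general

attribute [local instance] finite_quot

/-- natural arguments and values -/
theorem bilin_nat (H : Good F θ e) (hθ : ∃ x : F, θ x ≠ x) {A B C : Type v} [AddCommGroup A] [Module (Rg F e) A]
    [AddCommGroup B] [Module (Rg F e) B] [AddCommGroup C] [Module (Rg F e) C] (hA : IsNat F e A) (hB : IsNat F e B)
    (hC : IsNat F e C) (β : A →+ B →+ C)
    (hβ : ∀ (g : ↥(Cfsg.Lie.Sz F e)) (x : A) (y : B), β (gr g • x) (gr g • y) = gr g • β x y) (x : A) (y : B) :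
    β x y = 0 := by
  obtain ⟨ι, hι⟩ := hA
  obtain ⟨κ, hκ⟩ := hB
  obtain ⟨μ, hμ⟩ := hC
  let β' : (Fin 4 → F) →+ (Fin 4 → F) →+ (Fin 4 → F) :=
    { toFun := fun x => μ.symm.toAddMonoidHom.comp ((β (ι x)).comp κ.toAddMonoidHom)
      map_zero' := by
        refine AddMonoidHom.ext fun y => ?_
        show μ.symm (β (ι 0) (κ y)) = 0
        rw [map_zero, map_zero, AddMonoidHom.zero_apply, map_zero]
      map_add' := by
        intro x x'
        refine AddMonoidHom.ext fun y => ?_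
        show μ.symm (β (ι (x + x')) (κ y)) = μ.symm (β (ι x) (κ y)) + μ.symm (β (ι x') (κ y))
        rw [map_add, map_add, AddMonoidHom.add_apply, map_add] }
  have hβ' : ∀ (g : ↥(Cfsg.Lie.Sz F e)) (x y : Fin 4 → F), β' (mv g x) (mv g y) = mv g (β' x y) := by
    intro g x y
    show μ.symm (β (ι (mv g x)) (κ (mv g y))) = mv g (μ.symm (β (ι x) (κ y)))
    apply μ.injective
    rw [AddEquiv.apply_symm_apply, hι, hκ, hμ, AddEquiv.apply_symm_apply, hβ]
  obtain ⟨x, rfl⟩ := ι.surjective x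
  obtain ⟨y, rfl⟩ := κ.surjective y
  have h1 : μ.symm (β (ι x) (κ y)) = 0 := nat_zero hβ' hθ H x y
  rw [← μ.symm.map_zero] at h1
  exact μ.symm.injective h1

/-- natural arguments -/
theorem bilin_nat' (H : Good F θ e) [Finite F] (hθ : ∃ x : F, θ x ≠ x) {A B : Type v} [AddCommGroup A]
    [Module (Rg F e) A] [AddCommGroup B] [Module (Rg F e) B] (hA : IsNat F e A) (hB : IsNat F e B) (n : ℕ) :
    ∀ (C : Type v) [AddCommGroup C] [Module (Rg F e) C] [Finite C], Nat.card C ≤ n → E2 C → F5 H C →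
    ∀ (β : A →+ B →+ C)
    (_ : ∀ (g : ↥(Cfsg.Lie.Sz F e)) (x : A) (y : B), β (gr g • x) (gr g • y) = gr g • β x y) (x : A) (y : B),
    β x y = 0 := by
  induction n with
  | zero =>
    intro C _ _ _ hC _ _ β _ x y
    have := Nat.card_pos (α := C)
    omega
  | succ n ih =>
    intro C _ _ _ hC h2 h5 β hβ x y
    rcases subsingleton_or_nontrivial C with hs | hs
    · exact Subsingleton.elim _ _
    obtain ⟨X, hX⟩ := exists_atom (F := F) (e := e) (A := C)
    have hXs : IsSimpleModule (Rg F e) X := isSimpleModule_iff_isAtom.2 hX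
    have hXn : IsNat F e X := simple_isNat H (h2.sub X) (h5.sub X)
    -- modulo `X`
    have h3 := ih (C ⧸ X) (by have := card_quot_lt hX.1; omega) (h2.quot X) (h5.quot X)
      ((AddMonoidHom.compHom X.mkQ.toAddMonoidHom).comp β) (by
        intro g x y
        show X.mkQ (β (gr g • x) (gr g • y)) = gr g • X.mkQ (β x y)
        rw [hβ, map_smul])
    have h4 : ∀ x y, β x y ∈ X := by
      intro x y
      have h5 : X.mkQ (β x y) = 0 := h3 x y
      rwa [Submodule.mkQ_apply, Submodule.Quotient.mk_eq_zero] at h5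
    let β' : A →+ B →+ X :=
      { toFun := fun x =>
          { toFun := fun y => ⟨β x y, h4 x y⟩
            map_zero' := Subtype.ext (map_zero _)
            map_add' := fun y y' => Subtype.ext (map_add _ _ _) }
        map_zero' := by
          ext1 y
          apply Subtype.ext
          show β 0 y = 0
          rw [map_zero]
          rfl
        map_add' := by
          intro x x'
          ext1 y
          apply Subtype.ext
          show β (x + x') y = β x y + β x' y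
          rw [map_add]
          rfl }
    have h6 := bilin_nat H hθ hA hB hXn β' (by
      intro g x y
      apply Subtype.ext
      exact hβ g x y) x y
    exact congrArg Subtype.val h6

/-- factoring a bi-additive map through a quotient in the first variable -/
theorem bilin_lift {A B C : Type v} [AddCommGroup A] [Module (Rg F e) A]
    [AddCommGroup B] [AddCommGroup C] (β : A →+ B →+ C) (X : Submodule (Rg F e) A)
    (hX : ∀ x ∈ X, ∀ y, β x y = 0) : ∃ β' : (A ⧸ X) →+ B →+ C, ∀ x y, β' (X.mkQ x) y = β x y := by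
  choose s hs using X.mkQ_surjective
  have h : ∀ x y, β (s (X.mkQ x)) y = β x y := by
    intro x y
    have h1 : s (X.mkQ x) - x ∈ X := by
      rw [← Submodule.Quotient.mk_eq_zero (p := X), ← Submodule.mkQ_apply, map_sub, hs, sub_self]
    have h2 := hX _ h1 y
    rw [map_sub, AddMonoidHom.sub_apply] at h2
    exact sub_eq_zero.mp h2
  refine ⟨AddMonoidHom.mk' (fun q => β (s q)) ?_, h⟩
  intro q q'
  ext1 y
  have h1 := h (s q + s q') y
  rw [map_add, hs, hs] at h1
  rw [h1, map_add]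

theorem bilin_nat'' (H : Good F θ e) [Finite F] (hθ : ∃ x : F, θ x ≠ x) {B C : Type v}
    [AddCommGroup B] [Module (Rg F e) B] (hB : IsNat F e B)
    [AddCommGroup C] [Module (Rg F e) C] [Finite C] (hC2 : E2 C) (hC5 : F5 H C) (n : ℕ) :
    ∀ (A : Type v) [AddCommGroup A] [Module (Rg F e) A] [Finite A], Nat.card A ≤ n → E2 A → F5 H A →
    ∀ (β : A →+ B →+ C)
    (_ : ∀ (g : ↥(Cfsg.Lie.Sz F e)) (x : A) (y : B), β (gr g • x) (gr g • y) = gr g • β x y) (x : A) (y : B),
    β x y = 0 := by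
  induction n with
  | zero =>
    intro A _ _ _ hA _ _ β _ x y
    have := Nat.card_pos (α := A)
    omega
  | succ n ih =>
    intro A _ _ _ hA h2 h5 β hβ x y
    rcases subsingleton_or_nontrivial A with hs | hs
    · rw [Subsingleton.elim x 0, map_zero, AddMonoidHom.zero_apply]
    obtain ⟨X, hX⟩ := exists_atom (F := F) (e := e) (A := A)
    have hXs : IsSimpleModule (Rg F e) X := isSimpleModule_iff_isAtom.2 hX
    have hXn : IsNat F e X := simple_isNat H (h2.sub X) (h5.sub X)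
    have h3 : ∀ x ∈ X, ∀ y, β x y = 0 := by
      intro x hx y
      exact bilin_nat' H hθ hXn hB (Nat.card C) C le_rfl hC2 hC5 (β.comp X.subtype.toAddMonoidHom)
        (fun g x y => hβ g x y) ⟨x, hx⟩ y
    obtain ⟨β', hβ'⟩ := bilin_lift β X h3
    rw [← hβ']
    refine ih (A ⧸ X) (by have := card_quot_lt hX.1; omega) (h2.quot X) (h5.quot X) β' ?_ _ _
    intro g q y
    obtain ⟨x, rfl⟩ := X.mkQ_surjective q
    rw [← map_smul, hβ', hβ', hβ]

theorem bilin_aux (H : Good F θ e) [Finite F] (hθ : ∃ x : F, θ x ≠ x) {A C : Type v}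
    [AddCommGroup A] [Module (Rg F e) A] [Finite A] (hA2 : E2 A) (hA5 : F5 H A)
    [AddCommGroup C] [Module (Rg F e) C] [Finite C] (hC2 : E2 C) (hC5 : F5 H C) (n : ℕ) :
    ∀ (B : Type v) [AddCommGroup B] [Module (Rg F e) B] [Finite B], Nat.card B ≤ n → E2 B → F5 H B →
    ∀ (β : A →+ B →+ C)
    (_ : ∀ (g : ↥(Cfsg.Lie.Sz F e)) (x : A) (y : B), β (gr g • x) (gr g • y) = gr g • β x y) (x : A) (y : B),
    β x y = 0 := by
  induction n with
  | zero =>
    intro B _ _ _ hB _ _ β _ x y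
    have := Nat.card_pos (α := B)
    omega
  | succ n ih =>
    intro B _ _ _ hB h2 h5 β hβ x y
    rcases subsingleton_or_nontrivial B with hs | hs
    · rw [Subsingleton.elim y 0, map_zero]
    obtain ⟨X, hX⟩ := exists_atom (F := F) (e := e) (A := B)
    have hXs : IsSimpleModule (Rg F e) X := isSimpleModule_iff_isAtom.2 hX
    have hXn : IsNat F e X := simple_isNat H (h2.sub X) (h5.sub X)
    have h3 : ∀ y ∈ X, ∀ x, β.flip y x = 0 := by
      intro y hy x
      exact bilin_nat'' H hθ hXn hC2 hC5 (Nat.card A) A le_rfl hA2 hA5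
        ((β.flip.comp X.subtype.toAddMonoidHom).flip) (fun g x y => hβ g x y) x ⟨y, hy⟩
    obtain ⟨β', hβ'⟩ := bilin_lift β.flip X h3
    have h4 : β x y = β'.flip x (X.mkQ y) := (hβ' y x).symm
    rw [h4]
    refine ih (B ⧸ X) (by have := card_quot_lt hX.1; omega) (h2.quot X) (h5.quot X) β'.flip ?_ _ _
    intro g x q
    obtain ⟨y, rfl⟩ := X.mkQ_surjective q
    show β' (gr g • X.mkQ y) (gr g • x) = gr g • β' (X.mkQ y) x
    rw [← map_smul, hβ', hβ']
    exact hβ g x y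

/-- **an equivariant bi-additive map between modules of exponent two vanishes** -/
theorem bilin_zero (H : Good F θ e) [Finite F] (hθ : ∃ x : F, θ x ≠ x) {A B C : Type v}
    [AddCommGroup A] [Module (Rg F e) A] [Finite A] (hA2 : E2 A) (hA5 : F5 H A)
    [AddCommGroup B] [Module (Rg F e) B] [Finite B] (hB2 : E2 B) (hB5 : F5 H B)
    [AddCommGroup C] [Module (Rg F e) C] [Finite C] (hC2 : E2 C) (hC5 : F5 H C)
    (β : A →+ B →+ C)
    (hβ : ∀ (g : ↥(Cfsg.Lie.Sz F e)) (x : A) (y : B), β (gr g • x) (gr g • y) = gr g • β x y) (x : A) (y : B) :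
    β x y = 0 :=
  bilin_aux H hθ hA2 hA5 hC2 hC5 _ B le_rfl hB2 hB5 β hβ x y

end general

end Cfsg.Agent.H572.SzMod
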